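import Cfsg.Agent.Lib.Fix6.GL

/-!
# Large fixed spaces (S5720), IV: `SL₂(p)` in cross characteristic
-/

set_option autoImplicit false
set_option linter.unusedSectionVars false
set_option linter.unusedVariables false

namespace CfsgLib.Fix6
open Module Subgroup
open scoped MatrixGroups

universe v

variable {K : Type*} [Field K] {p : ℕ} [hp : Fact p.Prime]

theorem no_root (h3 : p % 3 = 2) (r : ZMod p) : r ^ 2 ≠ -1 + -1 * r := by
  intro e
  have h0 : r ≠ 0 := by rintro rfl; simp at e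
  have h1 : r ^ 3 = 1 := by linear_combination (r - 1) * e
  have h2 := ZMod.pow_card_sub_one_eq_one h0
  have h4 : r = 1 := by
    obtain ⟨k, hk⟩ : ∃ k, p - 1 = 3 * k + 1 := ⟨p / 3, by omega⟩
    rwa [hk, pow_succ, pow_mul, h1, one_pow, one_mul] at h2
  rw [h4] at e
  have h5 : ((3 : ℕ) : ZMod p) = 0 := by push_cast; linear_combination e
  rw [ZMod.natCast_eq_zero_iff] at h5
  have := (Nat.prime_dvd_prime_iff_eq hp.out Nat.prime_three).1 h5
  omega

section simple
variable [IsAlgClosed K] {W : Type*} [AddCommGroup W] [Module K W] [FiniteDimensional K W]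
  {ρ : Representation K (GL (Fin 2) (ZMod p)) W}

theorem Simple.eig_le (hs : Simple ρ) (h3 : p % 3 = 2) (h2 : 2 < p) (ω : K) :
    3 * nul (ρ gt - ω • 1) ≤ p + 1 := by
  haveI : Fact (∀ r : ZMod p, r ^ 2 ≠ -1 + -1 * r) := ⟨no_root h3⟩
  set T := centralizer ({gt} : Set (GL (Fin 2) (ZMod p)))
  haveI : IsCyclic T := isCyclic_of_injective_ringHom centHom centHom_inj
  obtain ⟨τ, hτ⟩ := IsCyclic.exists_monoid_generator (α := T)
  have hG := hs.gelfand gσ gσ_mul (fun g => ⟨gσ g, gσ_gσ g⟩) τ fun g => by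
    obtain ⟨β, h1, h2⟩ := exists_gσ (no_root h3) g
    obtain ⟨k, hk⟩ := hτ ⟨β, h1⟩
    exact ⟨k, by rw [show (τ : GL (Fin 2) (ZMod p)) ^ k = β from congrArg Subtype.val hk, h2]⟩
  set E := LinearMap.ker (ρ gt - ω • 1)
  let Y : Subgroup T :=
    { carrier := {β | ∃ c : K, ∀ v ∈ E, ρ β v = c • v}
      one_mem' := ⟨1, fun v _ => by simp⟩
      mul_mem' := by
        rintro β γ ⟨c, hc⟩ ⟨d, hd⟩
        exact ⟨d * c, fun v hv => by
          rw [coe_mul, map_mul, End.mul_apply, hd v hv, map_smul, hc v hv, smul_smul]⟩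
      inv_mem' := by
        rintro β ⟨c, hc⟩
        refine ⟨c⁻¹, fun v hv => ?_⟩
        have h1 : v = c • ρ β⁻¹.1 v := by
          rw [← map_smul, ← hc v hv, ← End.mul_apply, ← map_mul, coe_inv, inv_mul_cancel, map_one]
          rfl
        by_cases h0 : c = 0
        · rw [h0, zero_smul] at h1; rw [h1]; simp
        · conv_rhs => rw [h1, smul_smul, inv_mul_cancel₀ h0, one_smul] }
  have hz : ∀ (a : (ZMod p)ˣ) (g : GL (Fin 2) (ZMod p)),
      Matrix.GeneralLinearGroup.scalar (Fin 2) a * g = g * Matrix.GeneralLinearGroup.scalar (Fin 2) a :=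
    fun a g => Units.ext (Matrix.scalar_commute (a : ZMod p) (fun _ => Commute.all _ _) g.1)
  have h4 : p - 1 ∣ Nat.card Y := by
    let f : (ZMod p)ˣ →* Y := ((Matrix.GeneralLinearGroup.scalar (Fin 2)).codRestrict T
      fun a => mem_centralizer_singleton_iff.2 (hz a _)).codRestrict Y fun a => by
        obtain ⟨c, hc⟩ := hs.schur (ρ (Matrix.GeneralLinearGroup.scalar (Fin 2) a)) fun g => by
          rw [← map_mul, hz, map_mul]
        exact ⟨c, fun v _ => hc v⟩
    have := card_dvd_of_injective f fun a b e => Units.ext (by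
      simpa [f, Matrix.GeneralLinearGroup.scalar] using congrArg (fun y : Y => y.1.1.1 0 0) e)
    rwa [Nat.card_eq_fintype_card, ZMod.card_units] at this
  have h5 : 3 ∣ Nat.card Y := by
    haveI := Fact.mk Nat.prime_three
    have h6 : (⟨gt, mem_centralizer_singleton_iff.2 rfl⟩ : T) ∈ Y :=
      ⟨ω, fun v hv => by simpa [E, sub_eq_zero] using hv⟩
    have := Y.orderOf_dvd_natCard h6
    rwa [orderOf_mk, orderOf_eq_prime gt_cube gt_ne_one] at this
  have h6 := Nat.le_of_dvd Nat.card_pos (Nat.Coprime.mul_dvd_of_dvd_of_dvd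
    ((Nat.Prime.coprime_iff_not_dvd Nat.prime_three).2 (by omega)) h5 h4)
  have h7 : Nat.card T ≤ p * p := by
    have := Nat.card_le_card_of_injective _ (((QuadraticAlgebra.equivProd (-1 : ZMod p)
      (-1)).injective).comp centHom_inj)
    rwa [Nat.card_prod, Nat.card_zmod] at this
  have h8 := Y.card_mul_index
  have h9 : 0 < Y.index := Nat.pos_of_ne_zero Y.index_ne_zero_of_finite
  haveI : Y.Normal := ⟨fun a ha g => by rwa [mul_comm' g, mul_inv_cancel_right]⟩
  obtain ⟨κ, hκ⟩ := Y.pow_index_mem τ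
  have h10 := nul_pow_sub_le (ρ τ) hG h9 κ
  have h11 : nul (ρ gt - ω • 1) ≤ nul (ρ τ ^ Y.index - κ • 1) :=
    Submodule.finrank_mono fun v hv => by
      rw [LinearMap.mem_ker, ← map_pow, LinearMap.sub_apply, sub_eq_zero]
      exact hκ v hv
  obtain ⟨q, rfl⟩ : ∃ q, p = q + 1 := ⟨p - 1, by omega⟩
  rw [Nat.add_sub_cancel] at h6
  by_contra h12
  have h13 : q + 3 ≤ 3 * Y.index := by omega
  nlinarith

theorem dim_ge (ρ : Representation K (GL (Fin 2) (ZMod p)) W) (hK : (p : K) ≠ 0)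
    (h : ρ gt ≠ 1) : p - 1 ≤ finrank K W := by
  have h1 : ρ (gu 1) ≠ 1 := fun e => h (by
    obtain ⟨x, hx⟩ := gt_eq (F := ZMod p)
    have := congrArg ρ hx
    rwa [map_mul, map_pow, map_mul, map_mul, map_mul, e, mul_one, ← map_mul, mul_inv_cancel,
      map_one, mul_one, one_pow, mul_one] at this)
  set u := ρ (gu 1) with hu
  have h2 : u ^ p = 1 := by
    rw [hu, ← map_pow, ← gu_nat, ZMod.natCast_self, ← Nat.cast_zero, gu_nat, pow_zero, map_one]
  set N := ∑ i ∈ Finset.range p, u ^ i with hN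
  have h3 : ∀ x ∈ LinearMap.ker N, u x ∈ LinearMap.ker N := fun x hx => by
    have hc : Commute N u := Commute.sum_left _ _ _ fun i _ => Commute.pow_self u i
    rw [LinearMap.mem_ker, ← End.mul_apply, hc.eq, End.mul_apply, LinearMap.mem_ker.1 hx, map_zero]
  haveI : Nontrivial (LinearMap.ker N) := by
    obtain ⟨x, hx⟩ := not_forall.1 fun e => h1 (LinearMap.ext e)
    refine ⟨⟨(u - 1) x, ?_⟩, 0, fun e => hx (sub_eq_zero.1 (congrArg Subtype.val e))⟩
    rw [LinearMap.mem_ker, ← End.mul_apply, hN, geom_sum_mul, h2, sub_self]; rfl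
  obtain ⟨ζ, hζ⟩ := Module.End.exists_eigenvalue (u.restrict h3)
  obtain ⟨⟨v, hv⟩, h4, h5⟩ := hζ.exists_hasEigenvector
  have h6 : v ≠ 0 := fun e => h5 (Subtype.ext e)
  have h7 : u v = ζ • v := congrArg Subtype.val (End.mem_eigenspace_iff.1 h4)
  have h8 : ∀ n : ℕ, (u ^ n) v = ζ ^ n • v := fun n =>
    End.HasEigenvector.pow_apply ⟨End.mem_eigenspace_iff.2 h7, h6⟩ n
  have h9 : orderOf ζ = p := by
    refine orderOf_eq_prime (smul_left_injective K h6 ?_) ?_
    · simp only; rw [← h8, h2, one_smul]; rfl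
    · rintro rfl
      rw [LinearMap.mem_ker, hN, LinearMap.sum_apply] at hv
      simp only [h8, one_pow, Finset.sum_const, Finset.card_range, one_smul] at hv
      rw [← Nat.cast_smul_eq_nsmul K, smul_eq_zero] at hv
      exact hv.elim hK h6
  have h10 := (End.eigenvectors_linearIndependent' u (fun a : (ZMod p)ˣ => ζ ^ (a : ZMod p).val)
    (fun a b e => Units.ext (ZMod.val_injective p (pow_injOn_Iio_orderOf
      ((ZMod.val_lt _).trans_eq h9.symm) ((ZMod.val_lt _).trans_eq h9.symm) e)))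
    (fun a => ρ (gd a)⁻¹ v) fun a => ⟨?_, fun e => h6 ?_⟩).fintype_card_le_finrank
  · rwa [ZMod.card_units] at h10
  · rw [End.mem_eigenspace_iff, ← map_smul, ← h8, hu, ← map_pow, ← gu_nat, ZMod.natCast_zmod_val,
      ← End.mul_apply, ← End.mul_apply, ← map_mul, ← map_mul, eq_inv_mul_iff_mul_eq.2 (gd_gu a),
      ← mul_assoc, mul_inv_cancel_right]
  · have := congrArg (ρ (gd a)) e
    rwa [← End.mul_apply, ← map_mul, mul_inv_cancel, map_one, map_zero] at this

theorem Simple.cross (hs : Simple ρ) (h3 : p % 3 = 2) (h11 : 9 ≤ p) (hK : (p : K) ≠ 0)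
    (hK3 : (3 : K) ≠ 0) : finrank K W ≤ 6 * rk (1 + ρ gt + ρ gt * ρ gt) := by
  by_cases h : ρ gt = 1
  · have : (1 + ρ gt + ρ gt * ρ gt) = (3 : K) • 1 := by
      rw [h, mul_one, show (3 : K) = 1 + 1 + 1 by norm_num, add_smul, add_smul, one_smul]
    rw [this, rk_smul hK3, rk_one]; omega
  have h1 := dim_ge ρ hK h
  obtain ⟨ω, hω⟩ : ∃ ω : K, ω * ω + ω + 1 = 0 := by
    obtain ⟨ω, hω⟩ := IsAlgClosed.exists_root (Polynomial.X ^ 2 + Polynomial.X + 1 : Polynomial K)
      (by rw [show (Polynomial.X ^ 2 + Polynomial.X + 1 : Polynomial K).degree = 2 by compute_degree!]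
          norm_num)
    exact ⟨ω, by simpa [sq] using hω⟩
  have h2 : 1 + ρ gt + ρ gt * ρ gt = (ρ gt - ω • 1) * (ρ gt - (-1 - ω) • 1) := by
    simp only [sub_mul, mul_sub, smul_mul_assoc, mul_smul_comm, one_mul, mul_one]
    match_scalars
    · linear_combination hω
    · ring
    · ring
  have h4 := nul_mul_le (ρ gt - ω • 1) (ρ gt - (-1 - ω) • 1)
  have h5 := hs.eig_le h3 (by omega) ω
  have h6 := hs.eig_le h3 (by omega) (-1 - ω)
  have h7 := rk_add_nul (1 + ρ gt + ρ gt * ρ gt)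
  rw [← h2] at h4
  omega

end simple

variable {V : Type v} [AddCommGroup V] [Module K V] [FiniteDimensional K V]

theorem exists_ind {G A : Type*} [Group G] [Group A] (δ : G →* A) (hδ : Function.Surjective δ)
    (ρ : Representation K δ.ker V) :
    ∃ ρ' : Representation K G (A → V), ∀ t : δ.ker, ∃ c : A → δ.ker,
      (∀ a, ∃ x : G, (c a : G) = x * t * x⁻¹) ∧ ∀ f a, ρ' t f a = ρ (c a) (f a) := by
  choose d hd using hδ
  let s : A → G → δ.ker := fun a g => ⟨d a * g * (d (a * δ g))⁻¹, by simp [MonoidHom.mem_ker, hd]⟩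
  refine ⟨⟨⟨fun g => LinearMap.pi fun a => ρ (s a g) ∘ₗ LinearMap.proj (a * δ g), ?_⟩, fun g h => ?_⟩,
    fun t => ⟨fun a => s a t, fun a => ⟨d a, ?_⟩, fun f a => ?_⟩⟩
  · ext1 f; ext1 a
    have : s a 1 = 1 := Subtype.ext (by simp [s])
    simp [this]
  · ext1 f; ext1 a
    have : s a (g * h) = s a g * s (a * δ g) h := Subtype.ext (by simp [s, mul_assoc])
    simp [this, mul_assoc]
  · simp [s, MonoidHom.mem_ker.1 t.2]
  · simp [MonoidHom.mem_ker.1 t.2]

theorem rk_pi_le {A : Type*} [Fintype A] (P : End K (A → V)) (Q : A → End K V)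
    (h : ∀ f a, P f a = Q a (f a)) : rk P ≤ ∑ a, rk (Q a) := by
  classical
  have : P = ∑ a, LinearMap.single K (fun _ : A => V) a ∘ₗ Q a ∘ₗ LinearMap.proj a := by
    refine LinearMap.ext fun f => funext fun a => ?_
    simp [h, LinearMap.sum_apply, Finset.sum_apply, Pi.single_apply]
  rw [this]
  refine (rk_sum_le _ _).trans (Finset.sum_le_sum fun a _ => ?_)
  unfold rk
  rw [LinearMap.range_comp]
  exact (Submodule.finrank_map_le _ _).trans
    (Submodule.finrank_mono (LinearMap.range_comp_le_range _ _))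

theorem cross [IsAlgClosed K] (h3 : p % 3 = 2) (h11 : 9 ≤ p) (hK : (p : K) ≠ 0)
    (hK3 : (3 : K) ≠ 0) (ρ : Representation K SL(2, ZMod p) V) : ¬ Small ρ := by
  intro h
  let δ : GL (Fin 2) (ZMod p) →* (ZMod p)ˣ := Matrix.GeneralLinearGroup.det
  let f : δ.ker →* SL(2, ZMod p) :=
    { toFun := fun g => ⟨g.1.1, congrArg Units.val g.2⟩
      map_one' := rfl
      map_mul' := fun _ _ => rfl }
  have h1 := h.comp f fun a b e => Subtype.ext (Units.ext (congrArg Subtype.val e))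
  obtain ⟨ρ', h2⟩ := exists_ind δ (fun a => ⟨gd a, Units.ext (by
    simp [δ, Matrix.det_fin_two, gd])⟩) (ρ.comp f)
  obtain ⟨c, h4, h5⟩ := h2 ⟨gt, Units.ext (by simp [δ, Matrix.det_fin_two, gt])⟩
  have h6 := of_simple.{max 0 v} (K := K) (Finset.range 6)
    (fun _ => 1 + MonoidAlgebra.of K _ (gt : GL (Fin 2) (ZMod p)) +
      MonoidAlgebra.of K _ gt * MonoidAlgebra.of K _ gt) 1 (fun W _ _ _ ρ hs => by
      simp only [map_add, map_mul, map_one, Representation.asAlgebraHom_of, Finset.sum_const,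
        Finset.card_range, smul_eq_mul, one_mul]
      exact hs.cross h3 h11 hK hK3) _ ρ'
  simp only [map_add, map_mul, map_one, Representation.asAlgebraHom_of, Finset.sum_const,
    Finset.card_range, smul_eq_mul, one_mul] at h6
  have h7 := rk_pi_le (1 + ρ' gt + ρ' gt * ρ' gt)
    (fun a => 1 + (ρ.comp f) (c a) + (ρ.comp f) (c a) * (ρ.comp f) (c a)) fun g a => by
      simp only [LinearMap.add_apply, End.mul_apply, Pi.add_apply, End.one_apply, ← h5]
  have h8 : ∀ a, 6 * rk (1 + (ρ.comp f) (c a) + (ρ.comp f) (c a) * (ρ.comp f) (c a)) + 1 ≤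
      finrank K V := fun a => by
    obtain ⟨x, hx⟩ := h4 a
    have h9 := rk_P_le (ρ := ρ.comp f) (s := c a) (Subtype.ext (by
      rw [coe_pow, hx, conj_pow, gt_cube]; simp))
    have h10 := h1 (c a) fun e => gt_ne_one (F := ZMod p) (by
      rw [e] at hx; exact (conj_eq_one_iff.1 hx.symm))
    omega
  have h9 := Finset.sum_le_sum fun a (_ : a ∈ Finset.univ) => h8 a
  rw [Finset.sum_add_distrib, ← Finset.mul_sum] at h9
  rw [Module.finrank_pi_fintype] at h6
  have h10 : 0 < ∑ _a : (ZMod p)ˣ, 1 := by simp [hp.out.pos]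
  omega

end CfsgLib.Fix6
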