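import Cfsg.Agent.Lib.Fix6.Struct
import Cfsg.Agent.Lib.Fix6.Cross

/-!
# Large fixed spaces (S5720), VIII: `SL₂(p)`, `p ≥ 7`
-/

set_option autoImplicit false
set_option linter.unusedSectionVars false
set_option linter.unusedVariables false

namespace CfsgLib.Fix6
open Module Subgroup SL2 Finset
open scoped MatrixGroups

universe v

variable {K : Type*} [Field K] {p : ℕ} [hp : Fact p.Prime]

theorem one_le_rk {W : Type*} [AddCommGroup W] [Module K W] [FiniteDimensional K W] {f : End K W}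
    {v : W} (h : f v ≠ 0) : 1 ≤ rk f :=
  Nat.pos_of_ne_zero fun e => h ((Submodule.eq_bot_iff _).1 (Submodule.finrank_eq_zero.1 e) _ ⟨v, rfl⟩)

theorem tt_cube : (tt : SL(2, ZMod p)) ^ 3 = 1 := by
  rw [pow_three]
  apply ext2 <;> simp [mul_ap, tt, one_00, one_01, one_10, one_11]

theorem tt_ne_one : (tt : SL(2, ZMod p)) ≠ 1 := fun e => by
  simpa [tt, one_00] using congrArg (fun g : SL(2, ZMod p) => g 0 0) e

theorem Simple.defchar [Algebra (ZMod p) K] [IsAlgClosed K] {W : Type*} [AddCommGroup W]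
    [Module K W] [FiniteDimensional K W] {ρ : Representation K SL(2, ZMod p) W} (hs : Simple ρ)
    (h3 : p % 3 = 2) (h7 : 7 ≤ p) :
    finrank K W + 2 * nul (ρ.asAlgebraHom (bb K p)) ≤ 4 * rk (1 + ρ tt + ρ tt * ρ tt) +
      2 * rk (ρ.asAlgebraHom (XX K p * ee K p (p - 2))) +
      rk (ρ.asAlgebraHom (XX K p * ee K p 0)) := by
  classical
  haveI : CharP K p := charP_of_injective_algebraMap (algebraMap (ZMod p) K).injective p
  have hc : ∀ i : ℕ, 0 < i → i < p → (i : K) ≠ 0 := fun i h0 h1 e =>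
    absurd (Nat.le_of_dvd h0 ((CharP.cast_eq_zero_iff K p _).1 e)) (by omega)
  obtain ⟨ω, hω⟩ : ∃ ω : K, ω ^ 2 + ω + 1 = 0 := by
    obtain ⟨ω, hω⟩ := IsAlgClosed.exists_root (Polynomial.X ^ 2 + Polynomial.X + 1 : Polynomial K)
      (by rw [show (Polynomial.X ^ 2 + Polynomial.X + 1 : Polynomial K).degree = 2 by compute_degree!]
          norm_num)
    exact ⟨ω, by simpa using hω⟩
  obtain ⟨a, ha, m, n, hm, hsp, hn, hw, hX, ht⟩ := hs.struct (by omega) hω fun c e =>
    no_root h3 (-c) ((algebraMap (ZMod p) K).injective (by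
      simp only [map_pow, map_add, map_mul, map_neg, map_one]
      rw [neg_eq_of_add_eq_zero_right e]
      linear_combination hω))
  let B := Basis.mk hm hsp
  have hB : ∀ i : Fin (a + 1), B i = m i := fun i => Basis.mk_apply hm hsp i
  have d1 : finrank K W = a + 1 := by rw [finrank_eq_card_basis B, Fintype.card_fin]
  have d2 : (a + 3 - 2 * a % 3) / 3 ≤ rk (1 + ρ tt + ρ tt * ρ tt) := by
    have h1 := finrank_span_eq_card (hn.comp (fun j : Fin ((a + 3 - 2 * a % 3) / 3) =>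
      (⟨2 * a % 3 + 3 * j, by have := j.2; omega⟩ : Fin (a + 1))) fun i j e => by
        have := congrArg Fin.val e
        exact Fin.ext (by simp only at this; omega))
    rw [Fintype.card_fin] at h1
    rw [← h1]
    refine Submodule.finrank_mono (Submodule.span_le.2 ?_)
    rintro _ ⟨j, rfl⟩
    have h2 := j.2
    have h4 := ht (2 * a % 3 + 3 * j) (by omega)
    obtain ⟨k, hk⟩ : 3 ∣ 2 * a % 3 + 3 * j + 2 * (a - (2 * a % 3 + 3 * j)) := by omega
    rw [hk, pow_mul, show ω ^ 3 = 1 by linear_combination (ω - 1) * hω, one_pow, one_smul] at h4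
    refine ⟨((3 : ℕ) : K)⁻¹ • n (2 * a % 3 + 3 * j), ?_⟩
    rw [map_smul]
    simp only [LinearMap.add_apply, End.mul_apply, End.one_apply, h4, Function.comp_apply]
    rw [inv_smul_eq_iff₀ (hc 3 (by omega) (by omega))]
    module
  have d3 : ∀ i μ, 0 < i → i ≤ a → m i ∈ Wt ρ μ → 1 ≤ rk (ρ.asAlgebraHom (XX K p * ee K p μ)) :=
    fun i μ h0 h1 h2 => one_le_rk (v := m i) (by
      rw [map_mul, End.mul_apply, ee_of_mem ρ h2, hX i h1]
      exact smul_ne_zero (hc i h0 (by omega)) (hm.ne_zero (⟨i - 1, by omega⟩ : Fin (a + 1))))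
  have d4 : a % 2 = 1 → 1 ≤ rk (ρ.asAlgebraHom (XX K p * ee K p (p - 2))) := fun h =>
    d3 (a / 2 + 1) _ (by omega) (by omega) fun l => by
      rw [hw _ (by omega), show a - (a / 2 + 1) = a / 2 by omega]
      congr 1
      have h1 := io_pow (K := K) l
      have h2 := io_ne (K := K) l
      rw [show p - 1 = p - 2 + 1 by omega, pow_succ] at h1
      rw [pow_succ, mul_right_comm, ← mul_pow, inv_mul_cancel₀ h2, one_pow, one_mul]
      exact (eq_inv_of_mul_eq_one_left h1).symm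
  have d5 : a = 4 → 1 ≤ rk (ρ.asAlgebraHom (XX K p * ee K p 0)) := fun h =>
    d3 2 _ (by omega) (by omega) fun l => by
      rw [hw _ (by omega), h, ← mul_pow, inv_mul_cancel₀ (io_ne l), one_pow, pow_zero]
  have c1 : ∀ (i : ℕ) (h : i + 1 ≤ a) (v : W), B.coord ⟨i, by omega⟩ (ρ.asAlgebraHom (XX K p) v) =
      ((i + 1 : ℕ) : K) * B.coord ⟨i + 1, by omega⟩ v := by
    intro i h v
    refine LinearMap.congr_fun (f := B.coord ⟨i, by omega⟩ ∘ₗ ρ.asAlgebraHom (XX K p))
      (g := ((i + 1 : ℕ) : K) • B.coord ⟨i + 1, by omega⟩) (B.ext fun j => ?_) v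
    have h1 := j.2
    rw [LinearMap.comp_apply, LinearMap.smul_apply, hB, hX j (by omega), map_smul,
      ← hB ⟨j - 1, by omega⟩, ← hB]
    simp only [Basis.coord_apply, Basis.repr_self, Finsupp.single_apply, Fin.ext_iff, smul_eq_mul]
    rcases j with ⟨_ | j, h2⟩
    · simp
    · simp only [Nat.add_sub_cancel, Nat.add_right_cancel_iff]
      split_ifs with e
      · rw [e]
      · simp
  have c2 : ∀ (j : ℕ) (v : W) (i : ℕ) (h : i + j ≤ a), (ρ.asAlgebraHom (XX K p) ^ j) v = 0 →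
      B.coord ⟨i + j, by omega⟩ v = 0 := by
    intro j
    induction j with
    | zero => intro v i h e; rw [show v = 0 from e, map_zero]
    | succ j ih =>
      intro v i h e
      have h1 := ih (ρ.asAlgebraHom (XX K p) v) i (by omega) (by rwa [← End.mul_apply, ← pow_succ])
      rw [c1 (i + j) h, mul_eq_zero] at h1
      exact h1.resolve_left (hc _ (by omega) (by omega))
  obtain ⟨l, hl, -⟩ := exists_gen (K := K) (p := p)
  have e2 : p - 1 = 2 * (p / 2) := by
    have := hp.out.eq_two_or_odd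
    omega
  have c3 : ∀ v ∈ Wt ρ 3 ⊓ LinearMap.ker (ρ.asAlgebraHom (XX K p) ^ (p / 2)), ∀ i : Fin (a + 1),
      B.coord i v ≠ 0 → i.1 < p / 2 ∧ (2 * (p / 2 : ℕ) : ℤ) ∣ 3 + 2 * i.1 - a := by
    rintro v ⟨h1, h2⟩ ⟨i, hi⟩ h4
    refine ⟨not_le.1 fun h5 => h4 ?_, ?_⟩
    · obtain ⟨k, rfl⟩ := Nat.exists_eq_add_of_le' h5
      exact c2 _ v k (by omega) h2
    · have h5 : B.coord ⟨i, hi⟩ (ρ (dg l) v) =
          ((io K (l : ZMod p))⁻¹ ^ i * io K (l : ZMod p) ^ (a - i)) * B.coord ⟨i, hi⟩ v := by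
        refine LinearMap.congr_fun (f := B.coord ⟨i, hi⟩ ∘ₗ ρ (dg l))
          (g := ((io K (l : ZMod p))⁻¹ ^ i * io K (l : ZMod p) ^ (a - i)) • B.coord ⟨i, hi⟩)
          (B.ext fun j => ?_) v
        rw [LinearMap.comp_apply, LinearMap.smul_apply, hB, hw j (Nat.lt_succ_iff.1 j.2), map_smul,
          ← hB]
        simp only [Basis.coord_apply, Basis.repr_self, Finsupp.single_apply, smul_eq_mul]
        split_ifs with e
        · rw [e]
        · simp
      rw [h1 l, map_smul, smul_eq_mul] at h5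
      have h6 := mul_right_cancel₀ h4 h5
      have h8 : io K (l : ZMod p) ^ (a - i) = io K (l : ZMod p) ^ (3 + i) := by
        rw [pow_add, h6, mul_right_comm, ← mul_pow, inv_mul_cancel₀ (io_ne l), one_pow, one_mul]
      have h9 : IsOfFinOrder (io K (l : ZMod p)) := orderOf_pos_iff.1 (by omega)
      have h10 := (h9.pow_eq_pow_iff_modEq.1 h8).dvd
      rw [hl, e2, Nat.cast_sub (by omega : i ≤ a), Nat.cast_mul, Nat.cast_add] at h10
      convert h10 using 1
      · rfl
      · simp only [Nat.cast_ofNat]; ring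
  have c4 : (∀ i ≤ a, i < p / 2 → ¬ (2 * (p / 2 : ℕ) : ℤ) ∣ 3 + 2 * i - a) →
      nul (ρ.asAlgebraHom (bb K p)) = 0 := fun h => by
    rw [nul_bb ρ (by omega), DD, Submodule.finrank_eq_zero, Submodule.eq_bot_iff]
    refine fun v hv => B.ext_elem fun i => ?_
    by_contra h1
    have := c3 v hv i (by simpa using h1)
    exact h i (Nat.lt_succ_iff.1 i.2) this.1 this.2
  have c5 : nul (ρ.asAlgebraHom (bb K p)) ≤ 1 := by
    by_cases h : ∀ i ≤ a, i < p / 2 → ¬ (2 * (p / 2 : ℕ) : ℤ) ∣ 3 + 2 * i - a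
    · rw [c4 h]; omega
    push Not at h
    obtain ⟨i, h1, h2, h4⟩ := h
    rw [nul_bb ρ (by omega), DD, ← finrank_self K]
    refine LinearMap.finrank_le_finrank_of_injective (f := (B.coord ⟨i, by omega⟩).domRestrict _)
      ((injective_iff_map_eq_zero _).2 fun v hv => Subtype.ext (B.ext_elem fun j => ?_))
    by_contra h5
    obtain ⟨h6, h8⟩ := c3 v v.2 j (by simpa using h5)
    have h9 := Int.eq_zero_of_abs_lt_dvd (dvd_sub h4 h8) (by rw [abs_lt]; omega)
    have h10 : j = ⟨i, Nat.lt_succ_of_le h1⟩ := Fin.ext (by simp only; omega)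
    exact h5 (by rw [h10]; simpa using hv)
  have c6 : a % 2 = 0 ∨ a = 1 → nul (ρ.asAlgebraHom (bb K p)) = 0 := fun h => c4 fun i h1 h2 h4 => by
    rcases h with h | rfl
    · have := (Dvd.intro _ rfl : (2 : ℤ) ∣ _).trans h4
      omega
    · have := Int.le_of_dvd (by omega) h4
      omega
  have d6 : a ≠ 1 → a ≠ 4 → a + 1 ≤ 4 * ((a + 3 - 2 * a % 3) / 3) := fun h1 h4 => by
    obtain ⟨s, rfl | rfl | rfl⟩ : ∃ s, a = 3 * s ∨ a = 3 * s + 1 ∨ a = 3 * s + 2 := ⟨a / 3, by omega⟩
    · rw [show 2 * (3 * s) % 3 = 0 by omega]; omega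
    · rw [show 2 * (3 * s + 1) % 3 = 2 by omega]; omega
    · rw [show 2 * (3 * s + 2) % 3 = 1 by omega]; omega
  rcases Nat.mod_two_eq_zero_or_one a with h | h
  · have := c6 (.inl h)
    by_cases h4 : a = 4
    · have := d5 h4; omega
    · have := d6 (by omega) h4; omega
  · have := d4 h
    by_cases h1 : a = 1
    · have := c6 (.inr h1); omega
    · have := d6 h1 (by omega); omega

variable {V : Type v} [AddCommGroup V] [Module K V] [FiniteDimensional K V]

theorem defchar [IsAlgClosed K] (h3 : p % 3 = 2) (h7 : 7 ≤ p) (hK : (p : K) = 0)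
    (ρ : Representation K SL(2, ZMod p) V) : ¬ Small ρ := by
  intro h
  haveI : CharP K p := (CharP.charP_iff_prime_eq_zero hp.out).2 hK
  letI := ZMod.algebra K p
  let P : MonoidAlgebra K SL(2, ZMod p) :=
    1 + MonoidAlgebra.of K _ tt + MonoidAlgebra.of K _ tt * MonoidAlgebra.of K _ tt
  have hP : ∀ (W : Type v) [AddCommGroup W] [Module K W] (ρ : Representation K SL(2, ZMod p) W),
      ρ.asAlgebraHom P = 1 + ρ tt + ρ tt * ρ tt := fun W _ _ ρ => by
    simp only [P, map_add, map_mul, map_one, Representation.asAlgebraHom_of]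
  have h1 := of_simple.{v} (K := K) (univ : Finset (Fin 9)) ![P, P, P, P, XX K p * ee K p (p - 2),
    XX K p * ee K p (p - 2), bb K p, bb K p, XX K p * ee K p 0] 3 (fun W _ _ _ ρ hs => by
      have h1 := hs.defchar h3 h7
      have h2 := rk_add_nul (ρ.asAlgebraHom (bb K p))
      simp only [Fin.sum_univ_succ, Matrix.cons_val_zero, Matrix.cons_val_succ, hP,
        Fin.sum_univ_zero]
      omega) V ρ
  simp only [Fin.sum_univ_succ, Matrix.cons_val_zero, Matrix.cons_val_succ, hP,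
    Fin.sum_univ_zero] at h1
  have h2 := rk_add_nul (ρ.asAlgebraHom (bb K p))
  have h4 := upper ρ (by omega)
  have h5 := rk_P_le (ρ := ρ) (tt_cube (p := p))
  have h6 := h _ tt_ne_one
  have h8 := h (uu 1) fun e => one_ne_zero (uu_injective (e.trans uu_zero.symm))
  omega

theorem sl2_split (h3 : p % 3 = 1) (ρ : Representation K SL(2, ZMod p) V) : ¬ Small ρ := by
  intro h
  haveI := Fact.mk Nat.prime_three
  obtain ⟨ω, hω⟩ := exists_prime_orderOf_dvd_card (G := (ZMod p)ˣ) 3 (by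
    rw [ZMod.card_units]; omega)
  have h1 : ω ≠ 1 := by rintro rfl; simp at hω
  have h2 : ω ^ 3 = 1 := hω ▸ pow_orderOf_eq_one ω
  have h4 : (ω : ZMod p) ^ 3 = 1 := congrArg Units.val h2
  have h5 : (ω : ZMod p) ≠ 1 := fun e => h1 (Units.ext e)
  have h6 : (ω : ZMod p) ^ 2 + ω + 1 = 0 :=
    mul_left_cancel₀ (sub_ne_zero.2 h5) (by linear_combination h4)
  have h7 : ((ω⁻¹ : (ZMod p)ˣ) : ZMod p) = ω ^ 2 := by
    rw [inv_eq_of_mul_eq_one_right (a := ω) (b := ω ^ 2) (by rw [← pow_succ', h2])]; rfl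
  refine h.f3 (t := dg ω) (y := uu 1) (by rw [← dgHom_apply, ← map_pow, h2, map_one])
    (fun e => one_ne_zero (uu_injective (e.trans uu_zero.symm))) ?_ ?_
    (fun e => h1 (dg_injective (e.trans dg_one.symm))) (fun e => h5 ?_) fun e => h5 ?_
  · rw [dg_uu, mul_inv_cancel_right, ← uu_add, ← uu_add, add_comm]
  · rw [pow_three]
    apply ext2 <;> simp only [mul_ap, uu_00, uu_01, uu_10, uu_11, dg_00, dg_01, dg_10, dg_11, h7,
      one_00, one_01, one_10, one_11]
    · linear_combination h4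
    · linear_combination ω ^ 4 * h6
    · ring
    · linear_combination (ω ^ 3 + 1) * h4
  · simpa [mul_ap, one_00] using congrArg (fun g : SL(2, ZMod p) => g 0 0) e
  · simpa [mul_ap, one_00, inv_00] using congrArg (fun g : SL(2, ZMod p) => g 0 0) e

theorem sl2 (h7 : 7 ≤ p) (ρ : Representation K SL(2, ZMod p) V) : ¬ Small ρ := by
  intro h
  have h0 : p % 3 ≠ 0 := fun e => by
    have := (Nat.prime_dvd_prime_iff_eq Nat.prime_three hp.out).1 (Nat.dvd_of_mod_eq_zero e)
    omega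
  by_cases h1 : p % 3 = 1
  · exact sl2_split h1 ρ h
  obtain ⟨ρ', h'⟩ := h.baseChange (AlgebraicClosure K)
  by_cases h2 : (p : AlgebraicClosure K) = 0
  · exact defchar (by omega) h7 h2 ρ' h'
  haveI := Fact.mk Nat.prime_three
  have := hp.out.eq_two_or_odd
  exact cross (by omega) (by omega) h2 (fun e => tt_ne_one (h'.of_char (p := 3) (by norm_num)
    (by exact_mod_cast e) tt_cube)) ρ' h'

end CfsgLib.Fix6
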