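import Cfsg.Agent.Lib.Fix6.Mod

/-!
# Large fixed spaces (S5720), III: the nonsplit torus of `GL₂(p)` is multiplicity free
-/

set_option autoImplicit false
set_option linter.unusedSectionVars false
set_option linter.unusedVariables false

namespace CfsgLib.Fix6
open Module Subgroup

variable {F : Type*} [Field F]

/-- an invertible two by two matrix -/
noncomputable def g2 (a b c d : F) (h : a * d - b * c ≠ 0) : GL (Fin 2) F :=
  Matrix.GeneralLinearGroup.mkOfDetNeZero !![a, b; c, d] (by rwa [Matrix.det_fin_two_of])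

@[simp] theorem g2_00 (a b c d : F) (h : a * d - b * c ≠ 0) : (g2 a b c d h).1 0 0 = a := rfl
@[simp] theorem g2_01 (a b c d : F) (h : a * d - b * c ≠ 0) : (g2 a b c d h).1 0 1 = b := rfl
@[simp] theorem g2_10 (a b c d : F) (h : a * d - b * c ≠ 0) : (g2 a b c d h).1 1 0 = c := rfl
@[simp] theorem g2_11 (a b c d : F) (h : a * d - b * c ≠ 0) : (g2 a b c d h).1 1 1 = d := rfl

theorem gext {g h : GL (Fin 2) F} (h00 : g.1 0 0 = h.1 0 0) (h01 : g.1 0 1 = h.1 0 1)
    (h10 : g.1 1 0 = h.1 1 0) (h11 : g.1 1 1 = h.1 1 1) : g = h :=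
  Matrix.GeneralLinearGroup.ext fun i j => by fin_cases i <;> fin_cases j <;> assumption

theorem gmul (g h : GL (Fin 2) F) (i j : Fin 2) :
    (g * h).1 i j = g.1 i 0 * h.1 0 j + g.1 i 1 * h.1 1 j := by
  rw [Units.val_mul, Matrix.mul_apply, Fin.sum_univ_two]

theorem gdet (g : GL (Fin 2) F) : g.1 0 0 * g.1 1 1 - g.1 0 1 * g.1 1 0 ≠ 0 := by
  rw [← Matrix.det_fin_two]; exact g.det_ne_zero

@[simp] theorem gone_00 : (1 : GL (Fin 2) F).1 0 0 = 1 := rfl
@[simp] theorem gone_01 : (1 : GL (Fin 2) F).1 0 1 = 0 := rfl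
@[simp] theorem gone_10 : (1 : GL (Fin 2) F).1 1 0 = 0 := rfl
@[simp] theorem gone_11 : (1 : GL (Fin 2) F).1 1 1 = 1 := rfl

/-- the element of order three -/
noncomputable def gt : GL (Fin 2) F := g2 0 (-1) 1 (-1) (by simp)

/-- unipotent elements -/
noncomputable def gu (c : F) : GL (Fin 2) F := g2 1 c 0 1 (by simp)

/-- the diagonal matrices `diag(a, 1)` -/
noncomputable def gd (a : Fˣ) : GL (Fin 2) F := g2 a 0 0 1 (by simp)

/-- the anti-involution fixing the nonsplit torus -/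
noncomputable def gσ (g : GL (Fin 2) F) : GL (Fin 2) F :=
  g2 (g.1 1 0 + g.1 1 1) (g.1 0 0 + g.1 0 1 - g.1 1 0 - g.1 1 1) (g.1 1 0) (g.1 0 0 - g.1 1 0)
    fun e => gdet g (by linear_combination e)

theorem gσ_mul (g h : GL (Fin 2) F) : gσ (g * h) = gσ h * gσ g := by
  apply gext <;> simp only [gmul, gσ, g2_00, g2_01, g2_10, g2_11] <;> ring

theorem gσ_gσ (g : GL (Fin 2) F) : gσ (gσ g) = g := by
  apply gext <;> simp only [gσ, g2_00, g2_01, g2_10, g2_11] <;> ring

theorem gt_cube : (gt : GL (Fin 2) F) ^ 3 = 1 := by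
  rw [pow_three]
  apply gext <;> simp [gmul, gt]

theorem gt_ne_one : (gt : GL (Fin 2) F) ≠ 1 := fun e => by
  simpa [gt] using congrArg (fun g : GL (Fin 2) F => g.1 0 0) e

theorem gu_add (a b : F) : gu (a + b) = gu a * gu b := by
  apply gext <;> simp [gmul, gu, add_comm]

theorem gu_nat (n : ℕ) : gu (n : F) = gu 1 ^ n := by
  induction n with
  | zero => apply gext <;> simp [gu]
  | succ n ih => rw [Nat.cast_succ, gu_add, ih, pow_succ]

theorem gd_gu (a : Fˣ) : gd a * gu 1 = gu (a : F) * gd a := by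
  apply gext <;> simp [gmul, gu, gd]

theorem gt_eq : ∃ x : GL (Fin 2) F, gt * (gu 1 * (x * gu 1 * x⁻¹)) ^ 2 = 1 := by
  have h : g2 (0 : F) (-1) 1 0 (by simp) * gu 1 = g2 1 0 (-1) 1 (by simp) * g2 0 (-1) 1 0 (by simp) := by
    apply gext <;> simp [gmul, gu]
  refine ⟨g2 0 (-1) 1 0 (by simp), ?_⟩
  rw [h, mul_inv_cancel_right, sq]
  apply gext <;> simp [gmul, gu, gt]

theorem mem_cent {β : GL (Fin 2) F} (h : β ∈ centralizer ({gt} : Set (GL (Fin 2) F))) :
    β.1 0 1 = -β.1 1 0 ∧ β.1 1 1 = β.1 0 0 - β.1 1 0 := by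
  have h1 := mem_centralizer_singleton_iff.1 h
  have h2 := congrArg (fun g : GL (Fin 2) F => g.1 0 0) h1
  have h3 := congrArg (fun g : GL (Fin 2) F => g.1 1 0) h1
  simp only [gmul, gt, g2_00, g2_01, g2_10, g2_11] at h2 h3
  exact ⟨by linear_combination h2, by linear_combination h3⟩

/-- the torus embeds in the quadratic extension -/
noncomputable def centHom :
    centralizer ({gt} : Set (GL (Fin 2) F)) →* QuadraticAlgebra F (-1) (-1) where
  toFun β := ⟨β.1.1 0 0, β.1.1 1 0⟩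
  map_one' := by ext <;> simp [QuadraticAlgebra.re_one, QuadraticAlgebra.im_one]
  map_mul' β γ := by
    obtain ⟨h1, h2⟩ := mem_cent β.2
    ext
    · simp only [coe_mul, gmul, QuadraticAlgebra.re_mul, h1]; ring
    · simp only [coe_mul, gmul, QuadraticAlgebra.im_mul, h2]; ring

theorem centHom_inj : Function.Injective (centHom (F := F)) := by
  intro β γ e
  have e1 : β.1.1 0 0 = γ.1.1 0 0 := congrArg QuadraticAlgebra.re e
  have e2 : β.1.1 1 0 = γ.1.1 1 0 := congrArg QuadraticAlgebra.im e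
  obtain ⟨h1, h2⟩ := mem_cent β.2
  obtain ⟨h3, h4⟩ := mem_cent γ.2
  exact Subtype.ext (gext e1 (by rw [h1, h3, e2]) e2 (by rw [h2, h4, e1, e2]))

theorem exists_gσ (hF : ∀ r : F, r ^ 2 ≠ -1 + -1 * r) (g : GL (Fin 2) F) :
    ∃ β ∈ centralizer ({gt} : Set (GL (Fin 2) F)), gσ g * β = β * g := by
  obtain ⟨x, y, h0, h1⟩ : ∃ x y : F, (x ≠ 0 ∨ y ≠ 0) ∧
      x * (g.1 1 1 - g.1 0 0 + g.1 1 0) + y * (g.1 0 1 - g.1 1 1 + g.1 0 0) = 0 := by
    by_cases h : g.1 1 1 - g.1 0 0 + g.1 1 0 = 0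
    · exact ⟨1, 0, .inl one_ne_zero, by rw [h]; ring⟩
    · exact ⟨_, _, .inr (neg_ne_zero.2 h), by
        rw [mul_comm (g.1 0 1 - g.1 1 1 + g.1 0 0)]; ring⟩
  have h2 : x * (x - y) - -y * y ≠ 0 := by
    intro e
    by_cases hy : y = 0
    · rw [hy] at e
      exact (h0.resolve_right (not_not.2 hy)) (by simpa using e)
    · exact hF (-x / y) (by field_simp; linear_combination e)
  refine ⟨g2 x (-y) y (x - y) h2, mem_centralizer_singleton_iff.2 ?_, ?_⟩
  · apply gext <;> simp only [gmul, gt, g2_00, g2_01, g2_10, g2_11] <;> ring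
  · apply gext <;> simp only [gmul, gσ, g2_00, g2_01, g2_10, g2_11]
    · linear_combination h1
    · linear_combination -h1
    · ring
    · linear_combination -h1

end CfsgLib.Fix6
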