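import Cfsg.Agent.Lib.Fix6.Rank

/-!
# Large fixed spaces (S5720), II: base change, reduction to simple modules, Gelfand's trick
-/

set_option autoImplicit false
set_option linter.unusedSectionVars false
set_option linter.unusedVariables false

namespace CfsgLib.Fix6
open Module Subgroup
open scoped TensorProduct

universe v

variable {K : Type*} [Field K] {H : Type*} [Group H]

section
variable {V : Type*} [AddCommGroup V] [Module K V] [FiniteDimensional K V]

theorem nul_baseChange (L : Type*) [Field L] [Algebra K L] (f : End K V) :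
    nul (f.baseChange L) ≤ nul f := by
  have h : Function.Exact ((LinearMap.ker f).subtype.baseChange L) (f.baseChange L) :=
    Module.Flat.lTensor_exact L f.exact_subtype_ker_map
  unfold nul
  rw [LinearMap.exact_iff.1 h]
  exact (LinearMap.finrank_range_le _).trans Module.finrank_baseChange.le

theorem Small.baseChange {ρ : Representation K H V} (h : Small ρ) (L : Type*) [Field L]
    [Algebra K L] : ∃ ρ' : Representation L H (L ⊗[K] V), Small ρ' := by
  refine ⟨(Module.End.baseChangeHom K L V).toRingHom.toMonoidHom.comp ρ, fun x hx => ?_⟩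
  have h1 := nul_baseChange L (ρ x - 1)
  have h2 := h x hx
  rw [LinearMap.baseChange_sub, LinearMap.baseChange_one] at h1
  rw [Module.finrank_baseChange]
  exact lt_of_le_of_lt (Nat.mul_le_mul_left 6 h1) h2

theorem rk_superadd (f : End K V) (U : Submodule K V) (hU : U ≤ U.comap f) :
    rk (f.restrict hU) + rk (U.mapQ U f hU) ≤ rk f := by
  unfold rk
  rw [finrank_le_map_add (LinearMap.range f) U.mkQ, add_comm]
  refine add_le_add (Submodule.finrank_mono ?_) ?_
  · rintro _ ⟨x, rfl⟩
    obtain ⟨x, rfl⟩ := U.mkQ_surjective x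
    exact ⟨f x, ⟨x, rfl⟩, rfl⟩
  · rw [← Submodule.finrank_map_subtype_eq U]
    refine Submodule.finrank_mono ?_
    rintro _ ⟨_, ⟨x, rfl⟩, rfl⟩
    exact ⟨⟨x, rfl⟩, by rw [Submodule.ker_mkQ]; exact hU x.2⟩

/-- simple representations -/
def Simple (ρ : Representation K H V) : Prop :=
  Nontrivial V ∧ ∀ U : Submodule K V, (∀ g, U ≤ U.comap (ρ g)) → U = ⊥ ∨ U = ⊤

theorem alg_le (ρ : Representation K H V) {U : Submodule K V} (hU : ∀ g, U ≤ U.comap (ρ g))
    (a : MonoidAlgebra K H) : U ≤ U.comap (ρ.asAlgebraHom a) := by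
  induction a using MonoidAlgebra.induction_on with
  | of g => rw [Representation.asAlgebraHom_of]; exact hU g
  | add a b ha hb => intro x hx; rw [map_add]; exact U.add_mem (ha hx) (hb hx)
  | smul c a ha => intro x hx; rw [map_smul]; exact U.smul_mem c (ha hx)

theorem alg_sub (ρ : Representation K H V) {U : Submodule K V} (hU : ∀ g, U ≤ U.comap (ρ g))
    (a : MonoidAlgebra K H) :
    (ρ.subrepresentation U hU).asAlgebraHom a = (ρ.asAlgebraHom a).restrict (alg_le ρ hU a) := by
  ext x
  rw [LinearMap.coe_restrict_apply]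
  induction a using MonoidAlgebra.induction_on with
  | of g => rw [Representation.asAlgebraHom_of, Representation.asAlgebraHom_of]; rfl
  | add a b ha hb => rw [map_add, map_add, LinearMap.add_apply, LinearMap.add_apply, ← ha, ← hb]; rfl
  | smul c a ha => rw [map_smul, map_smul, LinearMap.smul_apply, LinearMap.smul_apply, ← ha]; rfl

theorem alg_quot (ρ : Representation K H V) {U : Submodule K V} (hU : ∀ g, U ≤ U.comap (ρ g))
    (a : MonoidAlgebra K H) :
    (ρ.quotient U hU).asAlgebraHom a = U.mapQ U (ρ.asAlgebraHom a) (alg_le ρ hU a) := by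
  ext x
  simp only [LinearMap.comp_apply, Submodule.mkQ_apply, Submodule.mapQ_apply]
  induction a using MonoidAlgebra.induction_on with
  | of g => rw [Representation.asAlgebraHom_of, Representation.asAlgebraHom_of]; rfl
  | add a b ha hb =>
    rw [map_add, map_add, LinearMap.add_apply, LinearMap.add_apply, ha, hb]; rfl
  | smul c a ha => rw [map_smul, map_smul, LinearMap.smul_apply, LinearMap.smul_apply, ha]; rfl

end

theorem of_simple {ι : Type*} (s : Finset ι) (a : ι → MonoidAlgebra K H) (m : ℕ)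
    (hs : ∀ (W : Type v) [AddCommGroup W] [Module K W] [FiniteDimensional K W]
      (ρ : Representation K H W), Simple ρ →
      m * finrank K W ≤ ∑ i ∈ s, rk (ρ.asAlgebraHom (a i)))
    (V : Type v) [AddCommGroup V] [Module K V] [FiniteDimensional K V]
    (ρ : Representation K H V) : m * finrank K V ≤ ∑ i ∈ s, rk (ρ.asAlgebraHom (a i)) := by
  generalize hn : finrank K V = n
  induction n using Nat.strong_induction_on generalizing V with
  | _ n ih =>
  subst hn
  by_cases h : Simple ρ
  · exact hs V ρ h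
  rcases subsingleton_or_nontrivial V with h0 | h0
  · rw [Module.finrank_zero_of_subsingleton, mul_zero]; exact Nat.zero_le _
  obtain ⟨U, hU, h1⟩ := not_forall₂.1 (fun e => h ⟨h0, e⟩)
  rw [not_or] at h1
  have h2 := U.finrank_quotient_add_finrank
  have h3 := Submodule.finrank_lt h1.2
  have h4 : 0 < finrank K U := Nat.pos_of_ne_zero fun e => h1.1 (Submodule.finrank_eq_zero.1 e)
  have h5 := ih _ h3 U (ρ.subrepresentation U hU) rfl
  have h6 := ih _ (by omega) (V ⧸ U) (ρ.quotient U hU) rfl
  rw [← h2, mul_add]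
  refine (add_le_add h6 h5).trans ?_
  rw [← Finset.sum_add_distrib]
  refine Finset.sum_le_sum fun i _ => ?_
  rw [alg_sub, alg_quot, add_comm]
  exact rk_superadd _ _ _

variable {W : Type*} [AddCommGroup W] [Module K W] [FiniteDimensional K W]
  {ρ : Representation K H W}

theorem Simple.schur [IsAlgClosed K] (hs : Simple ρ) (φ : End K W) (h : ∀ g, φ * ρ g = ρ g * φ) :
    ∃ μ : K, ∀ w, φ w = μ • w := by
  haveI := hs.1
  obtain ⟨μ, hμ⟩ := Module.End.exists_eigenvalue φ
  refine ⟨μ, fun w => ?_⟩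
  have h1 := (hs.2 (φ.eigenspace μ) fun g x hx => ?_).resolve_left hμ
  · exact End.mem_eigenspace_iff.1 (h1.ge Submodule.mem_top)
  · rw [Submodule.mem_comap, End.mem_eigenspace_iff, ← End.mul_apply, h, End.mul_apply,
      End.mem_eigenspace_iff.1 hx, map_smul]

theorem Simple.span (hs : Simple ρ) {v : W} (hv : v ≠ 0) :
    Submodule.span K (Set.range fun g => ρ g v) = ⊤ := by
  refine (hs.2 _ fun g => Submodule.span_le.2 ?_).resolve_left fun e => hv ?_
  · rintro _ ⟨h, rfl⟩
    exact Submodule.subset_span ⟨g * h, by simp⟩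
  · exact (Submodule.eq_bot_iff _).1 e v (Submodule.subset_span ⟨1, by simp⟩)

theorem Simple.eq_zero (hs : Simple ρ) {f : Dual K W} (hf : f ≠ 0) {x : W}
    (hx : ∀ g, f (ρ g x) = 0) : x = 0 := by
  by_contra h
  refine hf (LinearMap.ext_on (hs.span h) ?_)
  rintro _ ⟨g, rfl⟩
  exact hx g

theorem exists_dual (f : End K W) (h : 0 < nul f) : ∃ φ : Dual K W, φ ≠ 0 ∧ ∀ w, φ (f w) = 0 := by
  have h1 : LinearMap.range f < ⊤ := lt_top_iff_ne_top.2 fun e => by
    have := rk_add_nul f
    rw [rk, e, finrank_top] at this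
    omega
  obtain ⟨φ, h2, h3⟩ := Submodule.exists_le_ker_of_lt_top _ h1
  exact ⟨φ, h2, fun w => h3 ⟨w, rfl⟩⟩

/-- Gelfand's trick -/
theorem Simple.gelfand [IsAlgClosed K] (hs : Simple ρ) (σ : H → H)
    (hσ : ∀ g h, σ (g * h) = σ h * σ g) (hσs : Function.Surjective σ) (τ : H)
    (hτ : ∀ g, ∃ k : ℕ, σ g * τ ^ k = τ ^ k * g) (θ : K) : nul (ρ τ - θ • 1) ≤ 1 := by
  classical
  by_contra h0
  obtain ⟨f, hf, h1⟩ := exists_dual (ρ τ - θ • 1) (by omega)
  have h2 : ∀ (k : ℕ) w, f (ρ (τ ^ k) w) = θ ^ k * f w := by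
    intro k
    induction k with
    | zero => simp
    | succ k ih =>
      intro w
      have := h1 (ρ (τ ^ k) w)
      rw [LinearMap.sub_apply, map_sub, sub_eq_zero] at this
      rw [pow_succ', map_mul, End.mul_apply, this, pow_succ', mul_assoc, ← ih]
      simp
  have hθ : θ ≠ 0 := by
    rintro rfl
    refine hf (LinearMap.ext fun w => ?_)
    have := h2 1 (ρ τ⁻¹ w)
    rwa [pow_one, ← End.mul_apply, ← map_mul, mul_inv_cancel, map_one, pow_one, zero_mul] at this
  set E := LinearMap.ker (ρ τ - θ • 1)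
  have h3 : ∀ v ∈ E, ∀ k : ℕ, ρ (τ ^ k) v = θ ^ k • v := by
    intro v hv k
    have h4 : ρ τ v = θ • v := by simpa [E, sub_eq_zero] using hv
    induction k with
    | zero => simp
    | succ k ih => rw [pow_succ', map_mul, End.mul_apply, ih, map_smul, h4, smul_smul, pow_succ]
  have h4 : ∀ v ∈ E, ∀ g, f (ρ (σ g) v) = f (ρ g v) := by
    intro v hv g
    obtain ⟨k, hk⟩ := hτ g
    have := congrArg (fun x => f (ρ x v)) hk
    simp only [map_mul, End.mul_apply, h2, h3 v hv, map_smul, smul_eq_mul] at this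
    exact mul_left_cancel₀ (pow_ne_zero k hθ) this
  let π : W → (H →₀ K) →ₗ[K] W := fun v => Finsupp.linearCombination K fun g => ρ g v
  have h5 : ∀ v ∈ E, ∀ (a : H →₀ K) h,
      f (ρ h (π v a)) = f (a.sum fun g c => c • ρ (σ g) (ρ (σ h) v)) := by
    intro v hv a h
    simp only [π, Finsupp.linearCombination_apply, Finsupp.sum, map_sum, map_smul]
    refine Finset.sum_congr rfl fun g _ => ?_
    rw [← End.mul_apply, ← End.mul_apply, ← map_mul, ← map_mul, ← hσ, h4 v hv]
  have h6 : ∀ v ∈ E, v ≠ 0 → ∀ v' ∈ E, ∀ a, π v a = 0 → π v' a = 0 := by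
    intro v hv hv0 v' hv' a ha
    refine hs.eq_zero hf fun h => ?_
    rw [h5 v' hv']
    let F : W →ₗ[K] K := f ∘ₗ (a.sum fun g c => c • ρ (σ g))
    have hF : ∀ w, F w = f (a.sum fun g c => c • ρ (σ g) w) := fun w => by
      simp only [F, LinearMap.comp_apply, Finsupp.sum, LinearMap.sum_apply, LinearMap.smul_apply]
    have : F = 0 := LinearMap.ext_on (hs.span hv0) (by
      rintro _ ⟨g, rfl⟩
      obtain ⟨g, rfl⟩ := hσs g
      rw [hF, ← h5 v hv, ha, map_zero, map_zero]; rfl)
    rw [← hF, this]; rfl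
  obtain ⟨v, hv⟩ : ∃ v : E, v ≠ 0 := by
    haveI : Nontrivial E := Module.nontrivial_of_finrank_pos (R := K) (Nat.zero_lt_of_lt (not_le.1 h0))
    exact exists_ne 0
  have hv0 : (v : W) ≠ 0 := fun e => hv (Subtype.ext e)
  refine h0 (finrank_le_one v fun v' => ?_)
  obtain ⟨s, h7⟩ := (π v).exists_rightInverse_of_surjective (by
    rw [Finsupp.range_linearCombination]; exact hs.span hv0)
  have h8 : ∀ g, (π v' ∘ₗ s) (ρ g v) = ρ g v' := by
    intro g
    have h9 : ∀ x : W, π x (Finsupp.single g 1) = ρ g x := fun x => by simp [π]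
    have := h6 v v.2 hv0 v' v'.2 (s (ρ g v) - Finsupp.single g 1) (by
      rw [map_sub, h9, sub_eq_zero]; exact LinearMap.congr_fun h7 _)
    rwa [map_sub, h9, sub_eq_zero] at this
  obtain ⟨μ, hμ⟩ := hs.schur (π v' ∘ₗ s) fun g => LinearMap.ext_on (hs.span hv0) (by
    rintro _ ⟨h, rfl⟩
    change (π v' ∘ₗ s) ((ρ g * ρ h) v) = ρ g ((π v' ∘ₗ s) (ρ h v))
    rw [← map_mul, h8, h8, map_mul, End.mul_apply])
  refine ⟨μ, Subtype.ext ?_⟩
  have := h8 1
  rw [hμ, map_one] at this
  exact this

/-- a subspace killed by a polynomial in an operator with multiplicity free eigenvalues -/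
theorem nul_prod_le (f : End K W) (h : ∀ θ : K, nul (f - θ • 1) ≤ 1) (l : List K) :
    nul (l.map fun θ => f - θ • 1).prod ≤ l.length := by
  induction l with
  | nil =>
    have := rk_add_nul (1 : End K W)
    rw [rk_one] at this
    simp only [List.map_nil, List.prod_nil, List.length_nil]; omega
  | cons a l ih =>
    rw [List.map_cons, List.prod_cons, List.length_cons]
    exact (nul_mul_le _ _).trans (by have := h a; omega)

theorem nul_pow_sub_le [IsAlgClosed K] (f : End K W) (h : ∀ θ : K, nul (f - θ • 1) ≤ 1) {m : ℕ}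
    (hm : 0 < m) (κ : K) : nul (f ^ m - κ • 1) ≤ m := by
  open Polynomial in
  have h1 : (X ^ m - C κ : K[X]).Monic := monic_X_pow_sub_C κ hm.ne'
  have h2 := (IsAlgClosed.splits (X ^ m - C κ : K[X])).eq_prod_roots_of_monic h1
  have h3 := (IsAlgClosed.splits (X ^ m - C κ : K[X])).natDegree_eq_card_roots
  rw [natDegree_X_pow_sub_C] at h3
  have h4 := nul_prod_le f h (X ^ m - C κ : K[X]).roots.toList
  rw [Multiset.length_toList, ← h3] at h4
  convert h4 using 2
  have h5 := congrArg (aeval f) h2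
  rw [map_sub, map_pow, aeval_X, aeval_C, Algebra.algebraMap_eq_smul_one] at h5
  rw [h5, ← Multiset.prod_toList]
  conv_lhs => rw [← (X ^ m - C κ : K[X]).roots.coe_toList, Multiset.map_coe, Multiset.prod_toList,
    Multiset.prod_coe, map_list_prod, List.map_map]
  congr 2
  ext1 θ
  simp [Algebra.algebraMap_eq_smul_one]

end CfsgLib.Fix6
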