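import Mathlib
import Cfsg.Agent.Lib.Frob.Quaternion

/-!
# Large fixed spaces (S5720), I: rank calculus and forbidden configurations
-/

set_option autoImplicit false
set_option linter.unusedSectionVars false
set_option linter.unusedVariables false

namespace CfsgLib.Fix6
open Module Subgroup

variable {K V : Type*} [Field K] [AddCommGroup V] [Module K V] [FiniteDimensional K V]

/-- rank -/
noncomputable def rk (f : End K V) : ℕ := finrank K (LinearMap.range f)

/-- nullity -/
noncomputable def nul (f : End K V) : ℕ := finrank K (LinearMap.ker f)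

theorem rk_add_nul (f : End K V) : rk f + nul f = finrank K V := f.finrank_range_add_finrank_ker

theorem rk_add_le (f g : End K V) : rk (f + g) ≤ rk f + rk g := by
  refine le_trans (Submodule.finrank_mono (t := LinearMap.range f ⊔ LinearMap.range g) ?_)
    (Submodule.finrank_add_le_finrank_add_finrank _ _)
  rintro _ ⟨v, rfl⟩
  exact Submodule.add_mem_sup ⟨v, rfl⟩ ⟨v, rfl⟩

theorem rk_mul_le_left (f g : End K V) : rk (f * g) ≤ rk f :=
  Submodule.finrank_mono (LinearMap.range_comp_le_range g f)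

theorem rk_mul_le_right (f g : End K V) : rk (f * g) ≤ rk g := by
  unfold rk
  rw [Module.End.mul_eq_comp, LinearMap.range_comp]
  exact Submodule.finrank_map_le _ _

theorem rk_neg (f : End K V) : rk (-f) = rk f := by
  unfold rk; rw [LinearMap.range_neg]

theorem rk_sub_le (f g : End K V) : rk (f - g) ≤ rk f + rk g := by
  rw [sub_eq_add_neg, ← rk_neg g]; exact rk_add_le _ _

theorem rk_le_nul {f g : End K V} (h : f * g = 0) : rk g ≤ nul f :=
  Submodule.finrank_mono (LinearMap.range_le_ker_iff.2 h)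

theorem rk_one : rk (1 : End K V) = finrank K V := by
  unfold rk; rw [Module.End.one_eq_id, LinearMap.range_id, finrank_top]

theorem rk_le (f : End K V) : rk f ≤ finrank K V := Submodule.finrank_le _

theorem nul_zero : nul (0 : End K V) = finrank K V := by
  unfold nul; rw [LinearMap.ker_zero, finrank_top]

theorem rk_smul {c : K} (hc : c ≠ 0) (f : End K V) : rk (c • f) = rk f := by
  unfold rk; rw [LinearMap.range_smul _ _ hc]

/-- dimension of a subspace through a linear map -/
theorem finrank_le_map_add (W : Submodule K V) {V' : Type*} [AddCommGroup V'] [Module K V']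
    (f : V →ₗ[K] V') :
    finrank K W = finrank K (W.map f) + finrank K ↥(W ⊓ LinearMap.ker f) := by
  have h := (f.domRestrict W).finrank_range_add_finrank_ker
  rw [LinearMap.range_domRestrict, LinearMap.ker_domRestrict] at h
  rw [← h, ← Submodule.finrank_map_subtype_eq W (Submodule.comap W.subtype _),
    Submodule.map_comap_subtype]

theorem nul_mul_le (f g : End K V) : nul (f * g) ≤ nul f + nul g := by
  unfold nul
  rw [finrank_le_map_add (LinearMap.ker (f * g)) g]
  refine add_le_add (Submodule.finrank_mono ?_) (Submodule.finrank_mono inf_le_right)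
  rintro _ ⟨v, hv, rfl⟩
  exact hv

theorem nul_pow_le (f : End K V) (n : ℕ) : nul (f ^ n) ≤ n * nul f := by
  induction n with
  | zero =>
    have := rk_add_nul (1 : End K V)
    rw [rk_one] at this
    rw [pow_zero]; omega
  | succ n ih => rw [pow_succ, add_mul, one_mul]; exact (nul_mul_le _ _).trans (by omega)

variable {H : Type*} [Group H]

/-- every nonidentity element fixes less than a sixth of the space -/
def Small (ρ : Representation K H V) : Prop := ∀ h : H, h ≠ 1 → 6 * nul (ρ h - 1) < finrank K V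

variable {ρ : Representation K H V}

theorem Small.comp (h : Small ρ) {L : Type*} [Group L] (f : L →* H) (hf : Function.Injective f) :
    Small (ρ.comp f) := fun x hx => h (f x) fun e => hx (hf (e.trans f.map_one.symm))

theorem Small.invol (h : Small ρ) {z z' : H} (hz : z * z = 1) (hz' : z' * z' = 1) (h1 : z ≠ 1)
    (h2 : z' ≠ 1) : z = z' := by
  by_contra h3
  have h4 : z * z' ≠ 1 := fun e => h3 (by rw [← mul_one z, ← hz', ← mul_assoc, e, one_mul])
  have h5 : ∀ s : H, s * s = 1 → rk (ρ s + 1) ≤ nul (ρ s - 1) := fun s hs => rk_le_nul (by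
    rw [sub_mul, mul_add, ← map_mul, hs, map_one, mul_one, one_mul]; abel)
  have h6 : ρ (z * z') - 1 = (ρ z + 1) * ρ z' - (ρ z' + 1) := by
    rw [map_mul]; noncomm_ring
  have h7 := rk_add_nul (ρ (z * z') - 1)
  have h8 := (rk_sub_le ((ρ z + 1) * ρ z') (ρ z' + 1)).trans
    (add_le_add ((rk_mul_le_left _ _).trans (h5 z hz)) (h5 z' hz'))
  rw [← h6] at h8
  have := h z h1
  have := h z' h2
  have := h _ h4
  omega

theorem rk_P_le {s : H} (hs : s ^ 3 = 1) : rk (1 + ρ s + ρ s * ρ s) ≤ nul (ρ s - 1) :=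
  rk_le_nul (by
    have : ρ s * (ρ s * ρ s) = 1 := by rw [← map_mul, ← map_mul, ← pow_three, hs, map_one]
    simp only [sub_mul, mul_add, this, one_mul, mul_one]
    abel)

theorem f3_id {R : Type*} [Ring R] (u v T : R) (h : v * u = u * v) :
    (u - u * v * v) * (1 + T + T * T) + (v - 1) * (1 + u * T + u * v * (T * T)) +
      (u * v - u) * (u * v + v * T + T * T) = (u - 1) * (v - 1) * (u * v - 1) := by
  have h2 : ∀ x, v * (u * x) = u * (v * x) := fun x => by rw [← mul_assoc, h, mul_assoc]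
  simp only [mul_add, add_mul, mul_sub, sub_mul, mul_assoc, mul_one, one_mul, h, h2]
  abel

/-- the configuration `3 × 3` or a Frobenius group with complement of order three -/
theorem Small.f3 (h : Small ρ) {t y : H} (ht : t ^ 3 = 1) (hy : y ≠ 1)
    (hc : t * y * t⁻¹ * y = y * (t * y * t⁻¹)) (h3 : (y * t) ^ 3 = 1) (h1 : t ≠ 1)
    (h2 : y * t ≠ 1) (h4 : y⁻¹ * t ≠ 1) : False := by
  set v := t * y * t⁻¹ with hv
  have hty : t * y = v * t := by rw [hv]; group
  have hti : t⁻¹ = t * t := by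
    rw [inv_eq_iff_mul_eq_one, ← pow_three, ht]
  have h5 : y * v * (t * v * t⁻¹) = 1 := by
    rw [← h3, hv, pow_three]
    calc y * (t * y * t⁻¹) * (t * (t * y * t⁻¹) * t⁻¹) = y * t * y * t * y * (t⁻¹ * t⁻¹) := by group
      _ = y * t * y * t * y * (t * t ^ 3) := by rw [hti, pow_three]; simp only [mul_assoc]
      _ = _ := by rw [ht]; group
  have h6 : (y⁻¹ * t) ^ 3 = 1 := by
    have e1 : (t * v * t⁻¹) = (y * v)⁻¹ := eq_inv_of_mul_eq_one_right h5
    calc (y⁻¹ * t) ^ 3 = y⁻¹ * v⁻¹ * (t * v * t⁻¹)⁻¹ * t ^ 3 := by rw [hv, pow_three, pow_three]; group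
      _ = (v * y)⁻¹ * (y * v) := by rw [ht, e1]; group
      _ = 1 := by rw [hc, inv_mul_cancel]
  have hv1 : v ≠ 1 := fun e => hy (by
    have : y = t⁻¹ * v * t := by rw [hv]; group
    rw [this, e]; group)
  have hw : y * v ≠ 1 := fun e => hv1 (by
    rw [e, one_mul] at h5
    have : v = t⁻¹ * (t * v * t⁻¹) * t := by group
    rw [this, h5]; group)
  have e0 := f3_id (ρ y) (ρ v) (ρ t) (by rw [← map_mul, hc, map_mul])
  have e1 : 1 + ρ y * ρ t + ρ y * ρ v * (ρ t * ρ t) = 1 + ρ (y * t) + ρ (y * t) * ρ (y * t) := by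
    simp only [← map_mul]; congr 2; rw [hv]; group
  have e2 : ρ y * ρ v + ρ v * ρ t + ρ t * ρ t =
      ρ (y * v) * (1 + ρ (y⁻¹ * t) + ρ (y⁻¹ * t) * ρ (y⁻¹ * t)) := by
    simp only [mul_add, mul_one, ← map_mul]
    congr 2
    · congr 1; rw [← hc]; group
    · rw [← hc]
      calc t * t = v * (t * y⁻¹ * t) := by rw [hv]; group
        _ = _ := by group
  rw [e1, e2] at e0
  have r1 := (rk_mul_le_right (ρ y - ρ y * ρ v * ρ v) _).trans (rk_P_le (ρ := ρ) ht)
  have r2 := (rk_mul_le_right (ρ v - 1) _).trans (rk_P_le (ρ := ρ) h3)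
  have r3 := (rk_mul_le_right (ρ y * ρ v - ρ y) _).trans
    ((rk_mul_le_right (ρ (y * v)) _).trans (rk_P_le (ρ := ρ) h6))
  have r4 := (rk_add_le _ _).trans (add_le_add ((rk_add_le _ _).trans (add_le_add r1 r2)) r3)
  rw [e0, ← map_mul] at r4
  have r5 := rk_add_nul ((ρ y - 1) * (ρ v - 1) * (ρ (y * v) - 1))
  have r6 := (nul_mul_le ((ρ y - 1) * (ρ v - 1)) (ρ (y * v) - 1)).trans
    (add_le_add (nul_mul_le _ _) le_rfl)
  have := h _ hy
  have := h _ hv1
  have := h _ hw
  have := h _ h1
  have := h _ h2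
  have := h _ h4
  omega

theorem Small.of_char (h : Small ρ) {p : ℕ} [hp : Fact p.Prime] (h6 : p ≤ 6) (hK : (p : K) = 0)
    {x : H} (hx : x ^ p = 1) : x = 1 := by
  by_contra h1
  have := h x h1
  haveI : CharP K p := (CharP.charP_iff_prime_eq_zero hp.out).2 hK
  haveI : Nontrivial V := Module.nontrivial_of_finrank_pos (R := K) (by omega)
  haveI : CharP (End K V) p := charP_of_injective_algebraMap (algebraMap K (End K V)).injective p
  have h2 := nul_pow_le (ρ x - 1) p
  rw [sub_pow_char_of_commute _ (Commute.one_right _), ← map_pow, hx, map_one, one_pow, sub_self,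
    nul_zero] at h2
  nlinarith

theorem five_comm {R : Type*} [CommRing R] (x y : R) (hy : y ^ 5 = 1) :
    (∑ i ∈ Finset.range 5, y ^ i) * (1 - ∑ i ∈ Finset.range 5, x ^ i) +
      ∑ k ∈ Finset.range 5, ∑ i ∈ Finset.range 5, (x * y ^ k) ^ i = 5 := by
  simp only [Finset.sum_range_succ, Finset.range_zero, Finset.sum_empty]
  linear_combination (x ^ 2 * y + x ^ 2 * y ^ 3 + x ^ 3 * y + x ^ 3 * y ^ 4 + x ^ 3 * y ^ 2 * (y ^ 5 + 1) +
    x ^ 4 * y ^ 3 + x ^ 4 * y ^ 2 * (y ^ 5 + 1) + x ^ 4 * y * (y ^ 10 + y ^ 5 + 1)) * hy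

theorem five_id {R : Type*} [Ring R] (x y : R) (h : x * y = y * x) (hy : y ^ 5 = 1) :
    (∑ i ∈ Finset.range 5, y ^ i) * (1 - ∑ i ∈ Finset.range 5, x ^ i) +
      ∑ k ∈ Finset.range 5, ∑ i ∈ Finset.range 5, (x * y ^ k) ^ i = 5 := by
  let S := Subring.closure ({x, y} : Set R)
  letI : CommRing S := Subring.closureCommRingOfComm (by
    rintro a (rfl | rfl) b (rfl | rfl)
    exacts [rfl, h, h.symm, rfl])
  have := five_comm (⟨x, Subring.subset_closure (by simp)⟩ : S)
    ⟨y, Subring.subset_closure (by simp)⟩ (Subtype.ext hy)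
  have h2 := congrArg S.subtype this
  simpa only [map_add, map_mul, map_sub, map_sum, map_pow, map_one, map_ofNat,
    Subring.coe_subtype] using h2

theorem rk_sum_le {ι : Type*} (s : Finset ι) (f : ι → End K V) :
    rk (∑ i ∈ s, f i) ≤ ∑ i ∈ s, rk (f i) := by
  classical
  induction s using Finset.induction_on with
  | empty => rw [Finset.sum_empty, rk, LinearMap.range_zero, finrank_bot]; exact Nat.zero_le _
  | insert a s ha ih =>
    rw [Finset.sum_insert ha, Finset.sum_insert ha]
    exact (rk_add_le _ _).trans (by omega)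

theorem Small.five (h : Small ρ) {x y : H} (hx : x ^ 5 = 1) (hy : y ^ 5 = 1) (hc : x * y = y * x)
    (h1 : y ≠ 1) : x ∈ zpowers y := by
  by_contra h2
  by_cases h5 : ((5 : ℕ) : K) = 0
  · haveI := Fact.mk Nat.prime_five
    exact h1 (h.of_char (by norm_num) h5 hy)
  have h3 : ∀ s : H, s ^ 5 = 1 → rk (∑ i ∈ Finset.range 5, ρ s ^ i) ≤ nul (ρ s - 1) :=
    fun s hs => rk_le_nul (by rw [mul_geom_sum, ← map_pow, hs, map_one, sub_self])
  have h4 := five_id (ρ x) (ρ y) (by rw [← map_mul, hc, map_mul]) (by rw [← map_pow, hy, map_one])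
  have h6 : ∀ k : ℕ, 6 * rk (∑ i ∈ Finset.range 5, (ρ x * ρ y ^ k) ^ i) < finrank K V := by
    intro k
    rw [← map_pow, ← map_mul]
    have h7 := h3 (x * y ^ k) (by
      rw [(Commute.pow_right hc k).mul_pow, hx, ← pow_mul, mul_comm k, pow_mul, hy]; simp)
    have h8 := h (x * y ^ k) fun e => h2 (by
      rw [eq_inv_of_mul_eq_one_left e]; exact inv_mem (pow_mem (mem_zpowers y) k))
    omega
  have h7 := (rk_add_le _ _).trans (add_le_add ((rk_mul_le_left _
    (1 - ∑ i ∈ Finset.range 5, ρ x ^ i)).trans (h3 y hy))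
    (rk_sum_le (Finset.range 5) fun k => ∑ i ∈ Finset.range 5, (ρ x * ρ y ^ k) ^ i))
  have h8 : (5 : End K V) = ((5 : ℕ) : K) • 1 := by
    rw [← Algebra.algebraMap_eq_smul_one, map_natCast]; rfl
  rw [h4, h8, rk_smul h5, rk_one] at h7
  simp only [Finset.sum_range_succ (fun k => rk _), Finset.range_zero, Finset.sum_empty] at h7
  have := h y h1
  have := h6 0
  have := h6 1
  have := h6 2
  have := h6 3
  have := h6 4
  omega

theorem Small.three (h : Small ρ) {x y : H} (hx : x ^ 3 = 1) (hy : y ^ 3 = 1) (hc : x * y = y * x)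
    (h1 : y ≠ 1) : x ∈ zpowers y := by
  by_contra h2
  have h3 : x * y * x⁻¹ = y := by rw [hc]; group
  refine h.f3 hx h1 (by rw [h3]) (by rw [(show Commute y x from hc.symm).mul_pow, hx, hy, mul_one])
    (fun e => h2 (e ▸ one_mem _)) (fun e => h2 ?_) fun e => h2 ?_
  · rw [eq_inv_of_mul_eq_one_right e]; exact inv_mem (mem_zpowers y)
  · rw [eq_inv_of_mul_eq_one_right e, inv_inv]; exact mem_zpowers y

theorem isCyclic_of_comm [Finite H] {p : ℕ} [hp : Fact p.Prime] (h2 : p ≠ 2)
    (h : ∀ x y : H, x ^ p = 1 → y ^ p = 1 → x * y = y * x → y ≠ 1 → x ∈ zpowers y)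
    {R : Subgroup H} (hR : IsPGroup p R) : IsCyclic R := by
  refine (Frob.cyclic_or_quaternion_of_rank_one hR fun E hE hc => ?_).resolve_right
    fun e => h2 e.1
  haveI := IsPGroup.isMulCommutative_of_card_eq_prime_sq hc
  haveI : Nontrivial E := by
    rw [← Finite.one_lt_card_iff_nontrivial, hc]
    exact Nat.one_lt_pow two_ne_zero hp.out.one_lt
  obtain ⟨y, hy⟩ := exists_ne (1 : E)
  have h3 : ∀ x : E, (x.1.1 : H) ^ p = 1 := fun x => congrArg Subtype.val (hE x x.2)
  have h4 : ∀ x : E, x.1.1 ∈ zpowers y.1.1 := fun x => h _ _ (h3 x) (h3 y)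
    (congrArg (fun a : E => a.1.1) (mul_comm' x y)) fun e => hy (Subtype.ext (Subtype.ext e))
  have h5 := Nat.card_le_card_of_injective (fun x : E => (⟨x.1.1, h4 x⟩ : zpowers y.1.1))
    fun a b e => Subtype.ext (Subtype.ext (Subtype.mk.inj e))
  rw [hc, Nat.card_zpowers] at h5
  have h6 := Nat.le_of_dvd hp.out.pos (orderOf_dvd_of_pow_eq_one (h3 y))
  have := hp.out.one_lt
  nlinarith

theorem Small.cyc3 [Finite H] (h : Small ρ) {R : Subgroup H} (hR : IsPGroup 3 R) : IsCyclic R :=
  haveI := Fact.mk Nat.prime_three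
  isCyclic_of_comm (by norm_num) (fun _ _ => h.three) hR

theorem Small.cyc5 [Finite H] (h : Small ρ) {R : Subgroup H} (hR : IsPGroup 5 R) : IsCyclic R :=
  haveI := Fact.mk Nat.prime_five
  isCyclic_of_comm (by norm_num) (fun _ _ => h.five) hR

end CfsgLib.Fix6
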