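import Cfsg.Agent.Lib.Fix6.Sym

/-!
# Large fixed spaces (S5720), VII: the simple modules of `SL₂(p)` in characteristic `p`
-/

set_option autoImplicit false
set_option linter.unusedSectionVars false
set_option linter.unusedVariables false

namespace CfsgLib.Fix6
open Module Subgroup SL2 Finset
open scoped MatrixGroups

variable {K : Type*} [Field K] {p : ℕ} [hp : Fact p.Prime] [Algebra (ZMod p) K]
  {W : Type*} [AddCommGroup W] [Module K W] [FiniteDimensional K W]
  {ρ : Representation K SL(2, ZMod p) W}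

theorem bruhat0 {g : SL(2, ZMod p)} (h : g 1 0 = 0) :
    ∃ (a : (ZMod p)ˣ) (c : ZMod p), (a : ZMod p) = g 0 0 ∧ g = dg a * uu c := by
  have h1 := det_eq g
  rw [h, mul_zero, sub_zero] at h1
  have h2 : g 0 0 ≠ 0 := left_ne_zero_of_mul_eq_one h1
  refine ⟨Units.mk0 _ h2, g 0 1 / g 0 0, rfl, ?_⟩
  apply ext2 <;> simp only [mul_ap, uu_00, uu_01, uu_10, uu_11, dg_00, dg_01, dg_10, dg_11,
    Units.val_inv_eq_inv_val, Units.val_mk0, h] <;> field_simp
  · ring
  · ring
  · ring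
  · linear_combination h1

theorem bruhat1 {g : SL(2, ZMod p)} (h : g 1 0 ≠ 0) :
    ∃ (a : (ZMod p)ˣ) (b c : ZMod p), (a : ZMod p) = g 1 0 ∧ g = uu b * (ww * dg a * uu c) := by
  have h1 := det_eq g
  refine ⟨Units.mk0 _ h, g 0 0 / g 1 0, g 1 1 / g 1 0, rfl, ?_⟩
  apply ext2 <;> simp only [mul_ap, uu_00, uu_01, uu_10, uu_11, dg_00, dg_01, dg_10, dg_11,
    ww_00, ww_01, ww_10, ww_11, Units.val_inv_eq_inv_val, Units.val_mk0] <;> field_simp
  · ring
  · linear_combination -g 1 0 * h1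
  · ring
  · ring

theorem sum_pow_top (h2 : 2 < p) : ∑ d : ZMod p, d ^ (p - 1) = -1 := by
  have h6 : ∀ c : ZMod p, c ^ (p - 1) = 1 - if c = 0 then 1 else 0 := fun c => by
    split_ifs with h
    · rw [h, zero_pow (by omega), sub_self]
    · rw [ZMod.pow_card_sub_one_eq_one h, sub_zero]
  rw [Finset.sum_congr rfl fun c _ => h6 c]
  simp [ZMod.card]

theorem Simple.embed [IsAlgClosed K] (hs : Simple ρ) (h2 : 2 < p) :
    ∃ Θ : W →ₗ[K] (SL(2, ZMod p) → K), Function.Injective Θ ∧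
      (∀ h w, Θ (ρ h w) = LL K h (Θ w)) ∧ ∃ a < p, fy K p ^ a ∈ LinearMap.range Θ := by
  classical
  haveI := hs.1
  haveI : CharP K p := charP_of_injective_algebraMap (algebraMap (ZMod p) K).injective p
  obtain ⟨φ, h1, h3, s, h4, h5, h6⟩ := exists_hw ρ.dual
  obtain ⟨v, h7, h8, -⟩ := exists_hw ρ
  let Θ : W →ₗ[K] (SL(2, ZMod p) → K) := LinearMap.pi fun g => φ ∘ₗ ρ g⁻¹
  have hΘ : ∀ w g, Θ w g = φ (ρ g⁻¹ w) := fun _ _ => rfl
  have hi : Function.Injective Θ := (injective_iff_map_eq_zero Θ).2 fun w hw =>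
    hs.eq_zero h1 fun g => by simpa [hΘ] using congrFun hw g⁻¹
  have he : ∀ h w, Θ (ρ h w) = LL K h (Θ w) := fun h w => funext fun g => by
    rw [LL_apply, hΘ, hΘ, mul_inv_rev, inv_inv, map_mul, End.mul_apply]
  refine ⟨Θ, hi, he, ?_⟩
  have r1 : ∀ g c, Θ v (g * uu c) = Θ v g := fun g c => by
    rw [hΘ, hΘ, mul_inv_rev, map_mul, End.mul_apply]
    exact LinearMap.congr_fun (h3 c) _
  have r2 : ∀ g a, Θ v (g * dg a) = io K (a : ZMod p) ^ s * Θ v g := fun g a => by
    rw [hΘ, hΘ, mul_inv_rev, map_mul, End.mul_apply]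
    exact LinearMap.congr_fun (h6 a) _
  have r3 : ∀ g c, Θ v (uu c * g) = Θ v g := fun g c => by
    rw [hΘ, hΘ, mul_inv_rev, map_mul, End.mul_apply, ← uu_neg, h8]
  set α := Θ v ww
  set β := Θ v 1
  have hf : ∀ g, Θ v g = if g 1 0 = 0 then β * fx K p g ^ s else α * fy K p g ^ s := fun g => by
    split_ifs with h
    · obtain ⟨a, c, e1, e2⟩ := bruhat0 h
      rw [fx, ← e1, e2, r1, ← one_mul (dg a), r2, mul_comm]
    · obtain ⟨a, b, c, e1, e2⟩ := bruhat1 h
      rw [fy, ← e1, e2, r3, r1, r2, mul_comm]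
  have hv : Θ v ≠ 0 := fun e => h7 (hi (e.trans (map_zero Θ).symm))
  have sm : ∀ {c : K} {w : W} {f : SL(2, ZMod p) → K}, c ≠ 0 → Θ w = c • f →
      f ∈ LinearMap.range Θ := fun {c w f} hc e =>
    ⟨c⁻¹ • w, by rw [map_smul, e, smul_smul, inv_mul_cancel₀ hc, one_smul]⟩
  set σ := io K (∑ d : ZMod p, d ^ s) with hσ
  have hσ1 : s < p - 1 → σ = 0 := fun h => by
    rw [hσ, FiniteField.sum_pow_lt_card_sub_one (ZMod p) s (by rwa [ZMod.card]), io, map_zero]
  have hσ2 : s = p - 1 → σ = -1 := fun h => by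
    rw [hσ, h, sum_pow_top h2, io, map_neg, map_one]
  have hp1 : ∀ {c : ZMod p}, c ≠ 0 → io K c ^ (p - 1) = 1 := fun {c} hc => io_pow (Units.mk0 c hc)
  have hT : Θ (∑ c : ZMod p, ρ (uu c) (ρ ww v)) = (β + α * σ) • fy K p ^ s := by
    ext g
    rw [map_sum, Finset.sum_apply]
    have e1 : ∀ c : ZMod p, Θ (ρ (uu c) (ρ ww v)) g =
        (if c * g 1 0 - g 0 0 = 0 then β * fy K p g ^ s else 0) +
          α * io K ((c * g 1 0 - g 0 0) ^ s) := fun c => by
      have e2 : (ww⁻¹ * ((uu c)⁻¹ * g) : SL(2, ZMod p)) 1 0 = c * g 1 0 - g 0 0 := by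
        simp only [mul_ap, inv_00, inv_01, inv_10, inv_11, uu_00, uu_01, uu_10, uu_11, ww_00, ww_10]
        ring
      have e3 : (ww⁻¹ * ((uu c)⁻¹ * g) : SL(2, ZMod p)) 0 0 = g 1 0 := by
        simp only [mul_ap, inv_00, inv_01, inv_10, inv_11, uu_00, uu_01, uu_10, uu_11, ww_01, ww_11]
        ring
      rw [he, he, LL_apply, LL_apply, hf, fx, fy, e2, e3]
      split_ifs with h
      · rw [h, zero_pow h4.ne', io, io, map_zero, mul_zero, add_zero]; rfl
      · rw [zero_add, io, io, map_pow]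
    rw [sum_congr rfl fun c _ => e1 c, Pi.smul_apply, Pi.pow_apply, smul_eq_mul]
    by_cases hy : g 1 0 = 0
    · simp [fy, hy, h4.ne', ZMod.card]
    · rw [show ∑ c : ZMod p, ((if c * g 1 0 - g 0 0 = 0 then β * fy K p g ^ s else 0) +
          α * io K ((c * g 1 0 - g 0 0) ^ s)) = ∑ d : ZMod p,
          ((if d = 0 then β * fy K p g ^ s else 0) + α * io K (d ^ s)) from
        Equiv.sum_comp ((Equiv.mulRight₀ _ hy).trans (Equiv.subRight (g 0 0)))
          fun d => (if d = 0 then β * fy K p g ^ s else 0) + α * io K (d ^ s),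
        sum_add_distrib, sum_ite_eq', if_pos (mem_univ _), ← mul_sum, ← map_sum, add_mul]
      congr 1
      rcases (show s ≤ p - 1 by omega).lt_or_eq with h | h
      · rw [← io, ← hσ, hσ1 h]; ring
      · rw [← io, ← hσ, fy, h, hp1 hy, mul_one]
  by_cases h9 : β + α * σ = 0
  swap
  · exact ⟨s, h5, sm h9 hT⟩
  rcases (show s ≤ p - 1 by omega).lt_or_eq with h | h
  · rw [hσ1 h, mul_zero, add_zero] at h9
    have e : Θ v = α • fy K p ^ s := funext fun g => by
      rw [hf, h9]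
      split_ifs with hy
      · simp [fy, hy, h4.ne']
      · rfl
    exact ⟨s, h5, sm (fun e0 => hv (by rw [e, e0, zero_smul])) e⟩
  · rw [hσ2 h, mul_neg_one, ← sub_eq_add_neg, sub_eq_zero] at h9
    have e : Θ v = α • fy K p ^ 0 := funext fun g => by
      rw [hf, h9, h]
      split_ifs with hy
      · have h10 := det_eq g
        rw [hy, mul_zero, sub_zero] at h10
        rw [fx, hp1 (left_ne_zero_of_mul_eq_one h10), pow_zero]; rfl
      · rw [fy, hp1 hy, pow_zero]; rfl
    exact ⟨0, by omega, sm (fun e0 => hv (by rw [e, e0, zero_smul])) e⟩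

/-- the element of order three -/
def tt : SL(2, ZMod p) := mk2 0 (-1) 1 (-1) (by ring)

theorem Simple.struct [IsAlgClosed K] (hs : Simple ρ) (h2 : 2 < p) {ω : K}
    (hω : ω ^ 2 + ω + 1 = 0) (h3 : ∀ c : ZMod p, io K c + ω ≠ 0) :
    ∃ a < p, ∃ m n : ℕ → W, (LinearIndependent K fun i : Fin (a + 1) => m i) ∧
      ⊤ ≤ Submodule.span K (Set.range fun i : Fin (a + 1) => m i) ∧
      (LinearIndependent K fun i : Fin (a + 1) => n i) ∧
      (∀ i ≤ a, ∀ l : (ZMod p)ˣ, ρ (dg l) (m i) =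
        ((io K (l : ZMod p))⁻¹ ^ i * io K (l : ZMod p) ^ (a - i)) • m i) ∧
      (∀ i ≤ a, ρ.asAlgebraHom (XX K p) (m i) = (i : K) • m (i - 1)) ∧
      ∀ i ≤ a, ρ tt (n i) = ω ^ (i + 2 * (a - i)) • n i := by
  classical
  haveI : CharP K p := charP_of_injective_algebraMap (algebraMap (ZMod p) K).injective p
  obtain ⟨Θ, hi, he, a, ha, h4⟩ := hs.embed h2
  have hX : ∀ w, Θ (ρ.asAlgebraHom (XX K p) w) = ∑ c : ZMod p, io K c⁻¹ • LL K (uu c) (Θ w) :=
    fun w => by simp only [XX_apply, map_sum, map_smul, he]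
  have h5 : LinearMap.range Θ ≤ SS K p a := by
    obtain ⟨w, hw⟩ := h4
    have h6 := (hs.2 ((SS K p a).comap Θ) fun g x hx => by
      rw [Submodule.mem_comap, Submodule.mem_comap, he]; exact LL_mem g hx).resolve_left fun e => by
      have h7 : w = 0 := (Submodule.eq_bot_iff _).1 e w (by
        rw [Submodule.mem_comap, hw]; simpa using mono_mem (K := K) (p := p) (i := 0) (zero_add a))
      have := congrFun hw ww
      simp [h7, fy] at this
    rintro _ ⟨x, rfl⟩
    exact h6.ge Submodule.mem_top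
  have h6 : ∀ j i, i + j = a → fx K p ^ i * fy K p ^ j ∈ LinearMap.range Θ := by
    intro j
    induction j with
    | zero =>
      intro i h
      obtain ⟨w, hw⟩ := h4
      refine ⟨(-1 : K) ^ a • ρ ww w, ?_⟩
      rw [map_smul, he, hw, map_pow, LL_fy, ← smul_pow, ← h]
      simp
    | succ j ih =>
      intro i h
      obtain ⟨w, hw⟩ := ih (i + 1) (by omega)
      have h7 : ((i + 1 : ℕ) : K) ≠ 0 := fun e =>
        absurd (Nat.le_of_dvd i.succ_pos ((CharP.cast_eq_zero_iff K p _).1 e)) (by omega)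
      refine ⟨((i + 1 : ℕ) : K)⁻¹ • ρ.asAlgebraHom (XX K p) w, ?_⟩
      rw [map_smul, hX, hw, XX_mono h2 (by omega), smul_smul, inv_mul_cancel₀ h7, one_smul,
        Nat.add_sub_cancel]
  have h7 : SS K p a ≤ LinearMap.range Θ := Submodule.span_le.2 (by
    rintro _ ⟨i, rfl⟩
    exact h6 _ _ (by have := i.2; omega))
  let s := Function.invFun Θ
  have hs : ∀ f ∈ SS K p a, Θ (s f) = f := fun f hf => Function.invFun_eq (h7 hf)
  let ξ := (1 : K) • fx K p + ω ^ 2 • fy K p
  let η := (1 : K) • fx K p + ω • fy K p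
  have hm : ∀ i ≤ a, Θ (s (fx K p ^ i * fy K p ^ (a - i))) = fx K p ^ i * fy K p ^ (a - i) :=
    fun i h => hs _ (mono_mem (by omega))
  have hn : ∀ i ≤ a, Θ (s (ξ ^ i * η ^ (a - i))) = ξ ^ i * η ^ (a - i) := fun i h => hs _ (by
    have := lin_pow_mem (p := p) 1 (ω ^ 2) 1 ω i (a - i)
    rwa [Nat.add_sub_cancel' h] at this)
  refine ⟨a, ha, fun i => s (fx K p ^ i * fy K p ^ (a - i)), fun i => s (ξ ^ i * η ^ (a - i)),
    LinearIndependent.of_comp Θ ?_, fun w _ => ?_, LinearIndependent.of_comp Θ ?_,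
    fun i h l => hi ?_, fun i h => hi ?_, fun i h => hi ?_⟩
  · convert lin_indep (K := K) ha 1 0 (by simp) 0 1 (by simp) using 1
    ext1 i
    simp [hm i (Nat.lt_succ_iff.1 i.2)]
  · rw [← Submodule.apply_mem_span_image_iff_mem_span hi, ← Set.range_comp]
    convert h5 ⟨w, rfl⟩ using 1
    unfold SS
    congr 2
    ext1 i
    exact hm i (Nat.lt_succ_iff.1 i.2)
  · convert lin_indep (K := K) ha ω 1 (by simpa using h3) (ω ^ 2) 1 fun e => ?_ using 1
    · ext1 i
      exact hn i (Nat.lt_succ_iff.1 i.2)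
    · have h8 : ω * (ω - 1) = 0 := by linear_combination -e
      rcases mul_eq_zero.1 h8 with h | h
      · exact h3 0 (by simp [h])
      · exact h3 (-1) (by simp [sub_eq_zero.1 h])
  · rw [he, map_smul, hm i h, map_mul, map_pow, map_pow, LL_fx, LL_fy]
    simp only [dg_00, dg_01, dg_10, dg_11, neg_zero, io, map_zero, zero_smul, add_zero, zero_add,
      smul_pow, smul_mul_smul_comm, Units.val_inv_eq_inv_val, map_inv₀]
  · rw [hX, map_smul, hm i h, hm (i - 1) (by omega), XX_mono h2 (by omega)]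
    rcases i with _ | i
    · simp
    · rw [show a - (i + 1) + 1 = a - (i + 1 - 1) by omega]
  · have e1 : LL K tt ξ = ω • ξ := by
      simp only [ξ, map_add, map_smul, LL_fx, LL_fy, tt, mk2_00, mk2_01, mk2_10, mk2_11, io, map_neg,
        map_one, map_zero, neg_neg]
      match_scalars
      · linear_combination -hω
      · linear_combination (1 - ω) * hω
    have e2 : LL K tt η = ω ^ 2 • η := by
      simp only [η, map_add, map_smul, LL_fx, LL_fy, tt, mk2_00, mk2_01, mk2_10, mk2_11, io, map_neg,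
        map_one, map_zero, neg_neg]
      match_scalars
      · linear_combination -hω
      · linear_combination (1 - ω) * hω
    rw [he, map_smul, hn i h, map_mul, map_pow, map_pow, e1, e2, smul_pow, smul_pow,
      smul_mul_smul_comm, pow_add, pow_mul]

end CfsgLib.Fix6
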