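import Cfsg.Agent.Lib.Fix6.Wt

/-!
# Large fixed spaces (S5720), VI: functions on `SL₂(p)` and highest weight vectors
-/

set_option autoImplicit false
set_option linter.unusedSectionVars false
set_option linter.unusedVariables false

namespace CfsgLib.Fix6
open Module Subgroup SL2 Finset
open scoped MatrixGroups

variable {K : Type*} [Field K] {p : ℕ} [hp : Fact p.Prime] [Algebra (ZMod p) K]

variable (K p) in
/-- first coordinate function -/
def fx : SL(2, ZMod p) → K := fun g => io K (g 0 0)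

variable (K p) in
/-- second coordinate function -/
def fy : SL(2, ZMod p) → K := fun g => io K (g 1 0)

variable (K) in
/-- left translation of functions -/
def LL (h : SL(2, ZMod p)) : (SL(2, ZMod p) → K) →ₐ[K] (SL(2, ZMod p) → K) where
  toFun f g := f (h⁻¹ * g)
  map_one' := rfl
  map_mul' _ _ := rfl
  map_zero' := rfl
  map_add' _ _ := rfl
  commutes' _ := rfl

theorem LL_apply (h g : SL(2, ZMod p)) (f : SL(2, ZMod p) → K) : LL K h f g = f (h⁻¹ * g) := rfl

theorem LL_fx (h : SL(2, ZMod p)) :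
    LL K h (fx K p) = io K (h 1 1) • fx K p + io K (-h 0 1) • fy K p := by
  ext g; simp [LL_apply, fx, fy, mul_ap, inv_00, inv_01, Algebra.smul_def]

theorem LL_fy (h : SL(2, ZMod p)) :
    LL K h (fy K p) = io K (-h 1 0) • fx K p + io K (h 0 0) • fy K p := by
  ext g; simp [LL_apply, fx, fy, mul_ap, inv_10, inv_11, Algebra.smul_def]

variable (K p) in
/-- homogeneous polynomial functions of degree `a` -/
def SS (a : ℕ) : Submodule K (SL(2, ZMod p) → K) :=
  Submodule.span K (Set.range fun i : Fin (a + 1) => fx K p ^ i.1 * fy K p ^ (a - i.1))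

theorem mono_mem {a i j : ℕ} (h : i + j = a) : fx K p ^ i * fy K p ^ j ∈ SS K p a :=
  Submodule.subset_span ⟨⟨i, by omega⟩, by simp only; rw [show a - i = j by omega]⟩

theorem lin_mul_mem {a : ℕ} (α β : K) {f : SL(2, ZMod p) → K} (hf : f ∈ SS K p a) :
    (α • fx K p + β • fy K p) * f ∈ SS K p (a + 1) := by
  induction hf using Submodule.span_induction with
  | mem f hf =>
    obtain ⟨i, rfl⟩ := hf
    have := i.2
    rw [add_mul, smul_mul_assoc, smul_mul_assoc, ← mul_assoc, ← pow_succ', mul_left_comm, ← pow_succ']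
    exact add_mem (Submodule.smul_mem _ _ (mono_mem (by omega)))
      (Submodule.smul_mem _ _ (mono_mem (by omega)))
  | zero => rw [mul_zero]; exact zero_mem _
  | add f g _ _ h1 h2 => rw [mul_add]; exact add_mem h1 h2
  | smul c f _ h => rw [mul_smul_comm]; exact Submodule.smul_mem _ _ h

theorem lin_pow_mem (α β γ δ : K) (i j : ℕ) :
    (α • fx K p + β • fy K p) ^ i * (γ • fx K p + δ • fy K p) ^ j ∈ SS K p (i + j) := by
  induction i with
  | zero =>
    rw [pow_zero, one_mul, zero_add]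
    induction j with
    | zero => simpa using mono_mem (K := K) (p := p) (a := 0) (i := 0) (j := 0) rfl
    | succ j ih => rw [pow_succ']; exact lin_mul_mem _ _ ih
  | succ i ih =>
    rw [pow_succ', mul_assoc, add_right_comm]
    exact lin_mul_mem _ _ ih

theorem LL_mem {a : ℕ} (h : SL(2, ZMod p)) {f : SL(2, ZMod p) → K} (hf : f ∈ SS K p a) :
    LL K h f ∈ SS K p a := by
  refine (Submodule.span_le (p := (SS K p a).comap (LL K h).toLinearMap)).2 ?_ hf
  rintro _ ⟨i, rfl⟩
  have h1 := lin_pow_mem (p := p) (io K (h 1 1)) (io K (-h 0 1)) (io K (-h 1 0)) (io K (h 0 0)) i (a - i)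
  rwa [← LL_fx, ← LL_fy, ← map_pow, ← map_pow, ← map_mul, Nat.add_sub_cancel' (Nat.lt_succ_iff.1 i.2)]
    at h1

theorem lin_indep {a : ℕ} (ha : a < p) (κ μ : K) (h1 : ∀ c : ZMod p, μ * io K c + κ ≠ 0)
    (κ' μ' : K) (h2 : μ' * κ ≠ μ * κ') : LinearIndependent K fun i : Fin (a + 1) =>
      (μ' • fx K p + κ' • fy K p) ^ i.1 * (μ • fx K p + κ • fy K p) ^ (a - i.1) := by
  refine Fintype.linearIndependent_iff.2 fun c hc => congrFun
    (Matrix.eq_zero_of_forall_index_sum_mul_pow_eq_zero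
      (f := fun j : Fin (a + 1) => (μ' * io K (j.1 : ZMod p) + κ') / (μ * io K (j.1 : ZMod p) + κ))
      (fun i j e => ?_) fun j => ?_)
  · rw [div_eq_div_iff (h1 _) (h1 _)] at e
    have h3 : (μ' * κ - μ * κ') * (io K (i.1 : ZMod p) - io K (j.1 : ZMod p)) = 0 := by
      linear_combination e
    rw [mul_eq_zero, sub_eq_zero, sub_eq_zero] at h3
    have h4 := congrArg ZMod.val ((algebraMap (ZMod p) K).injective (h3.resolve_left h2))
    rw [ZMod.val_cast_of_lt (by omega), ZMod.val_cast_of_lt (by omega)] at h4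
    exact Fin.ext h4
  · have h3 := congrFun hc (uu (j.1 : ZMod p) * ww)
    have h4 := h1 (j.1 : ZMod p)
    simp only [Finset.sum_apply, Pi.smul_apply, Pi.mul_apply, Pi.pow_apply, Pi.add_apply, fx, fy,
      mul_ap, uu_00, uu_01, uu_10, uu_11, ww_00, ww_10, mul_zero, mul_one, zero_add, smul_eq_mul,
      map_one, Pi.zero_apply] at h3
    refine mul_left_cancel₀ (pow_ne_zero a h4) ?_
    rw [mul_zero, ← h3, mul_sum]
    refine sum_congr rfl fun i _ => ?_
    rw [pow_sub₀ _ h4 (Nat.lt_succ_iff.1 i.2), div_pow]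
    field_simp

theorem sum_inv_pow (h2 : 2 < p) {k : ℕ} (hk : k < p) :
    ∑ c : ZMod p, c⁻¹ * c ^ k = if k = 1 then -1 else 0 := by
  classical
  rcases k with _ | _ | k
  · simp only [pow_zero, mul_one]
    rw [show ∑ c : ZMod p, c⁻¹ = ∑ c : ZMod p, c from Equiv.sum_comp (Equiv.inv (ZMod p)) fun c => c]
    simpa using FiniteField.sum_pow_lt_card_sub_one (ZMod p) 1 (by rw [ZMod.card]; omega)
  · have h6 : ∀ c : ZMod p, c⁻¹ * c ^ (0 + 1) = 1 - if c = 0 then 1 else 0 := fun c => by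
      split_ifs with h
      · simp [h]
      · simp [inv_mul_cancel₀ h]
    rw [Finset.sum_congr rfl fun c _ => h6 c]
    simp [ZMod.card]
  · rw [if_neg (by omega), ← FiniteField.sum_pow_lt_card_sub_one (ZMod p) (k + 1)
      (by rw [ZMod.card]; omega)]
    refine sum_congr rfl fun c _ => ?_
    by_cases h : c = 0
    · simp [h]
    · rw [pow_succ' c (k + 1), inv_mul_cancel_left₀ h]

theorem sum_inv_binom (h2 : 2 < p) {i : ℕ} (hi : i < p) (x y : ZMod p) :
    ∑ c : ZMod p, c⁻¹ * (x - c * y) ^ i = i * x ^ (i - 1) * y := by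
  have h1 : ∀ c : ZMod p, c⁻¹ * (x - c * y) ^ i =
      ∑ k ∈ range (i + 1), (c⁻¹ * c ^ k) * ((-y) ^ k * x ^ (i - k) * i.choose k) := fun c => by
    rw [show x - c * y = c * -y + x by ring, add_pow, mul_sum]
    exact sum_congr rfl fun k _ => by rw [mul_pow]; ring
  rw [sum_congr rfl fun c _ => h1 c, sum_comm, sum_eq_single 1]
  · rw [← sum_mul, sum_inv_pow h2 (by omega)]; simp; ring
  · intro k hk h
    rw [← sum_mul, sum_inv_pow h2 (by have := mem_range.1 hk; omega), if_neg h, zero_mul]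
  · intro h
    rw [show i = 0 by simpa using h]; simp

theorem XX_mono (h2 : 2 < p) {i : ℕ} (hi : i < p) (j : ℕ) :
    ∑ c : ZMod p, io K c⁻¹ • LL K (uu c) (fx K p ^ i * fy K p ^ j) =
      (i : K) • (fx K p ^ (i - 1) * fy K p ^ (j + 1)) := by
  ext g
  have h := congrArg (fun z => io K (z * g 1 0 ^ j)) (sum_inv_binom h2 hi (g 0 0) (g 1 0))
  simp only [sum_mul, map_sum, map_mul, map_pow, map_sub, map_natCast] at h
  simp only [Finset.sum_apply, map_mul, map_pow, LL_fx, LL_fy, Pi.smul_apply, Pi.mul_apply,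
    Pi.pow_apply, Pi.add_apply, fx, fy, smul_eq_mul, uu_00, uu_01, uu_10, uu_11, map_one, neg_zero,
    map_zero, map_neg, zero_mul, zero_add, one_mul]
  rw [pow_succ' _ j, ← mul_assoc, ← mul_assoc, ← h]
  exact sum_congr rfl fun c _ => by ring

variable {V : Type*} [AddCommGroup V] [Module K V] [FiniteDimensional K V]

theorem exists_hw [IsAlgClosed K] [Nontrivial V] (ρ : Representation K SL(2, ZMod p) V) :
    ∃ v : V, v ≠ 0 ∧ (∀ c, ρ (uu c) v = v) ∧ ∃ s, 0 < s ∧ s < p ∧ v ∈ Wt ρ s := by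
  obtain ⟨l, h1, h2⟩ := exists_gen (K := K) (p := p)
  have h3 : ∀ v ∈ LinearMap.ker (ρ (uu 1) - 1), ∀ c, ρ (uu c) v = v := fun v hv c => by
    have h4 : ρ (uu 1) v = v := by simpa [sub_eq_zero] using hv
    rw [uu_val]
    induction c.val with
    | zero => simp
    | succ n ih => rw [pow_succ, map_mul, End.mul_apply, h4, ih]
  have h4 : ∀ v ∈ LinearMap.ker (ρ (uu 1) - 1), ρ (dg l) v ∈ LinearMap.ker (ρ (uu 1) - 1) := by
    intro v hv
    have h5 := dg_uu l ((l : ZMod p) ^ 2)⁻¹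
    rw [mul_inv_cancel₀ (pow_ne_zero 2 l.ne_zero)] at h5
    rw [LinearMap.mem_ker, LinearMap.sub_apply, ← End.mul_apply, ← map_mul, ← h5, map_mul,
      End.mul_apply, h3 v hv, End.one_apply, sub_self]
  haveI : Nontrivial (LinearMap.ker (ρ (uu 1) - 1)) := by
    have h5 := nul_pow_le (ρ (uu 1) - 1) p
    rw [u_nil, nul_zero] at h5
    exact Module.nontrivial_of_finrank_pos (R := K) (Nat.pos_of_mul_pos_left
      (Module.finrank_pos.trans_le h5))
  obtain ⟨θ, hθ⟩ := Module.End.exists_eigenvalue ((ρ (dg l)).restrict h4)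
  obtain ⟨⟨v, hv⟩, h5, h6⟩ := hθ.exists_hasEigenvector
  have h7 : v ≠ 0 := fun e => h6 (Subtype.ext e)
  have h8 : ∀ n : ℕ, ρ (dg (l ^ n)) v = θ ^ n • v := fun n => by
    rw [← dgHom_apply, map_pow, map_pow]
    exact End.HasEigenvector.pow_apply ⟨End.mem_eigenspace_iff.2
      (congrArg Subtype.val (End.mem_eigenspace_iff.1 h5)), h7⟩ n
  have h9 : θ ^ (p - 1) = 1 := smul_left_injective K h7 (by
    simp only
    rw [← h8, ZMod.units_pow_card_sub_one_eq_one, dg_one, map_one, one_smul]; rfl)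
  have h10 := hp.out.one_lt
  haveI : NeZero (p - 1) := ⟨by omega⟩
  obtain ⟨s, h11, h12⟩ := (h1 ▸ IsPrimitiveRoot.orderOf (io K (l : ZMod p))).eq_pow_of_pow_eq_one h9
  have h13 : v ∈ Wt ρ s := fun a => by
    obtain ⟨k, rfl⟩ := h2 a
    rw [h8, ← h12, Units.val_pow_eq_pow_val, io, io, map_pow, ← pow_mul, ← pow_mul, mul_comm]
  refine ⟨v, h7, h3 v hv, ?_⟩
  rcases Nat.eq_zero_or_pos s with rfl | h14
  · exact ⟨0 + (p - 1), by omega, by omega, (Wt_period ρ 0).symm ▸ h13⟩
  · exact ⟨s, h14, by omega, h13⟩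

end CfsgLib.Fix6
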