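import Cfsg.Agent.Lib.Fix6.Rank
import Cfsg.Agent.Lib.Comp.Quasisimple
import Cfsg.Agent.Lib.Core.Basic
import Cfsg.Agent.Lib.SL2.Basic

/-!
# Large fixed spaces (S5720), IX: `SL₂(3)` acting on a group of odd order
-/

set_option autoImplicit false
set_option linter.unusedSectionVars false
set_option linter.unusedVariables false

namespace CfsgLib.Fix6
open Module Subgroup
open scoped MatrixGroups commutatorElement

variable {K V : Type*} [Field K] [AddCommGroup V] [Module K V] [FiniteDimensional K V]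
  {L : Type*} [Group L] [Finite L] {ρ : Representation K L V}

/-- generators of a quaternion group permuted by `t` -/
structure Tri (z t a b : L) : Prop where
  aa : a * a = z
  bb : b * b = z
  ba : b * a = z * a * b
  ta : t * a = b * t
  tb : t * b = a * b * t

theorem Tri.rot {z t a b : L} (h : Tri z t a b) (hz : ∀ g, g * z = z * g) (h2 : z * z = 1) :
    Tri z t b (a * b) where
  aa := h.bb
  bb := by
    calc a * b * (a * b) = a * (b * a) * b := by group
      _ = a * z * a * (b * b) := by rw [h.ba]; group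
      _ = z * (a * a) * (b * b) := by rw [hz a]; group
      _ = z := by rw [h.aa, h.bb, h2, one_mul]
  ba := by
    calc a * b * b = z * z * a * (b * b) := by rw [h2]; group
      _ = z * (z * a * b) * b := by group
      _ = _ := by rw [← h.ba]; group
  ta := h.tb
  tb := by rw [← mul_assoc, h.ta, mul_assoc, h.tb]; group

theorem eq_one_of_inv {N : Subgroup L} (hN : Odd (Nat.card N)) {x : L} (hx : x ∈ N)
    (h : x = x⁻¹) : x = 1 := by
  have h1 : x ^ 2 = 1 := by rw [sq]; nth_rw 1 [h]; exact inv_mul_cancel x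
  exact orderOf_eq_one_iff.1 (Nat.eq_one_of_dvd_coprimes (Nat.coprime_two_right.2 hN)
    (N.orderOf_dvd_natCard hx) (orderOf_dvd_of_pow_eq_one h1))

theorem Small.key (h : Small ρ) {N D : Subgroup L} [N.Normal] (hN : Odd (Nat.card N)) [hD : D.Normal]
    (hDN : D ≤ N) {z t a b : L} (hz : ∀ g, g * z = z * g) (ht : t ^ 3 = 1) (htN : t ∉ N)
    (hT : Tri z t a b) (hb : ∀ c ∈ ⁅D, D⁆, b * c * b⁻¹ = c) {x : L} (hx : x ∈ D)
    (h1 : a * x * a⁻¹ = x) (h2 : b * x * b⁻¹ = x⁻¹) : x = 1 := by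
  by_contra h0
  set x' := t * x * t⁻¹ with hx'
  have m1 : x' ∈ D := hD.conj_mem x hx t
  have h3 : b * x' * b⁻¹ = x' := by
    calc b * x' * b⁻¹ = (b * t) * x * (b * t)⁻¹ := by rw [hx']; group
      _ = t * (a * x * a⁻¹) * t⁻¹ := by rw [← hT.ta]; group
      _ = x' := by rw [h1]
  have h4 : Commute x x' := by
    have h5 := hb _ (commutator_mem_commutator hx m1)
    have h6 : b * ⁅x, x'⁆ * b⁻¹ = (b * x * b⁻¹) * (b * x' * b⁻¹) * (b * x * b⁻¹)⁻¹ *
        (b * x' * b⁻¹)⁻¹ := by rw [commutatorElement_def]; group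
    rw [h6, h2, h3, commutatorElement_def, mul_left_inj, inv_inv] at h5
    have h7 : Commute (x ^ 2) x' := by
      rw [Commute, SemiconjBy, sq]
      calc x * x * x' = x * (x * x' * x⁻¹) * x := by group
        _ = _ := by rw [← h5]; group
    have h8 : (orderOf x).Coprime 2 :=
      (Nat.coprime_two_right.2 hN).coprime_dvd_left (N.orderOf_dvd_natCard (hDN hx))
    obtain ⟨k, hk⟩ := exists_pow_eq_self_of_coprime h8.symm
    rw [← hk]; exact h7.pow_left k
  set x'' := t * x' * t⁻¹ with hx''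
  have h5 : t * x'' * t⁻¹ = x := by
    calc t * x'' * t⁻¹ = t ^ 3 * x * (t ^ 3)⁻¹ := by rw [hx'', hx', pow_three]; group
      _ = x := by rw [ht]; group
  have cj : ∀ {u v : L}, Commute u v → Commute (t * u * t⁻¹) (t * v * t⁻¹) := fun {u v} e => by
    simpa using e.map (MulAut.conj t)
  have h6 : Commute x' x'' := cj h4
  have h7 : Commute x'' x := h5 ▸ cj h6
  have h8 : t * (x⁻¹ * x') * t⁻¹ = x'⁻¹ * x'' := by rw [hx'', hx']; group
  have m2 : x⁻¹ * x' ∈ N := hDN (mul_mem (inv_mem hx) m1)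
  refine h.f3 (t := t) (y := x⁻¹ * x') ht (fun e => h0 (eq_one_of_inv hN (hDN hx) ?_)) ?_ ?_
    (fun e => htN (e ▸ one_mem N)) (fun e => htN ?_) fun e => htN ?_
  · rw [inv_mul_eq_one] at e
    rw [← h2, e, h3]
  · rw [h8]
    exact ((h4.symm.inv_inv.mul_right (Commute.refl x').inv_left).mul_left
      (h7.inv_right.mul_right h6.symm)).eq
  · calc (x⁻¹ * x' * t) ^ 3 = x⁻¹ * (t * x'' * t⁻¹) * t ^ 3 := by
          rw [hx'', hx', pow_three, pow_three]; group
      _ = 1 := by rw [h5, ht]; group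
  · rw [eq_inv_of_mul_eq_one_right e]; exact inv_mem m2
  · rw [eq_inv_of_mul_eq_one_right e]; exact inv_mem (inv_mem m2)

theorem Small.cent (h : Small ρ) {N : Subgroup L} [N.Normal] (hN : Odd (Nat.card N))
    (hs : Group.IsSolvable N) {z t : L} (hz : ∀ g, g * z = z * g) (h2 : z * z = 1) (ht : t ^ 3 = 1)
    (htN : t ∉ N) (D : Subgroup L) : D.Normal → D ≤ N → ∀ a b, Tri z t a b →
      ∀ d ∈ D, a * d * a⁻¹ = d := by
  induction D using WellFoundedLT.induction with
  | ind D ih =>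
  intro hD hDN a b hT d hd
  rcases D.commutator_le_self.eq_or_lt with e | e
  · rw [Comp.eq_bot_of_perfect_of_le_solvable e hDN hs, mem_bot] at hd
    rw [hd]; group
  have h3 := ih _ e inferInstance (e.le.trans hDN)
  have T1 := hT.rot hz h2
  have T2 := T1.rot hz h2
  have T3 := T2.rot hz h2
  have sq : ∀ {u v}, Tri z t u v → ∀ y, u * (u * y * u⁻¹) * u⁻¹ = y := fun {u v} T y => by
    calc u * (u * y * u⁻¹) * u⁻¹ = u * u * y * (u * u)⁻¹ := by group
      _ = y := by rw [T.aa, ← hz]; group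
  have cm : ∀ y, b * (a * y * a⁻¹) * b⁻¹ = a * (b * y * b⁻¹) * a⁻¹ := fun y => by
    calc b * (a * y * a⁻¹) * b⁻¹ = b * a * y * (b * a)⁻¹ := by group
      _ = z * (a * (b * y * b⁻¹) * a⁻¹) * z⁻¹ := by rw [hT.ba]; group
      _ = _ := by rw [← hz]; group
  set x := d⁻¹ * (a * d * a⁻¹) with hx
  have m1 : x ∈ D := mul_mem (inv_mem hd) (hD.conj_mem d hd a)
  have h4 : a * x * a⁻¹ = x⁻¹ := by
    calc a * x * a⁻¹ = (a * d * a⁻¹)⁻¹ * (a * (a * d * a⁻¹) * a⁻¹) := by rw [hx]; group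
      _ = x⁻¹ := by rw [sq hT, hx]; group
  set w := b * x * b⁻¹ with hw
  have m2 : w ∈ D := hD.conj_mem x m1 b
  have h5 : a * w * a⁻¹ = w⁻¹ := by rw [hw, ← cm, h4]; group
  have h6 : b * w * b⁻¹ = x := sq T1 x
  set c := ⁅w, x⁻¹⁆ with hc
  have m3 : c ∈ ⁅D, D⁆ := commutator_mem_commutator m2 (inv_mem m1)
  have h7 : a * b * (x⁻¹ * w) * (a * b)⁻¹ = c * (x⁻¹ * w) := by
    calc a * b * (x⁻¹ * w) * (a * b)⁻¹ =
          (a * (b * x * b⁻¹) * a⁻¹)⁻¹ * (a * (b * w * b⁻¹) * a⁻¹) := by group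
      _ = _ := by rw [← hw, h5, h6, h4, hc, commutatorElement_def]; group
  have h8 : c = 1 := by
    have h9 := sq T2 (x⁻¹ * w)
    rw [h7, show a * b * (c * (x⁻¹ * w)) * (a * b)⁻¹ = (a * b * c * (a * b)⁻¹) *
      (a * b * (x⁻¹ * w) * (a * b)⁻¹) by group, h7, h3 _ _ T2 c m3, ← mul_assoc,
      mul_eq_right] at h9
    exact eq_one_of_inv hN (hDN (e.le m3)) (eq_inv_of_mul_eq_one_left h9)
  rw [h8, one_mul] at h7
  have h9 : x⁻¹ * w = 1 := h.key hN hDN hz ht htN T2 (h3 _ _ T3) (mul_mem (inv_mem m1) m2) h7 (by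
    calc b * (a * b) * (x⁻¹ * w) * (b * (a * b))⁻¹ = b * (a * b * (x⁻¹ * w) * (a * b)⁻¹) * b⁻¹ := by
          group
      _ = (b * x * b⁻¹)⁻¹ * (b * w * b⁻¹) := by rw [h7]; group
      _ = _ := by rw [h6, ← hw]; group)
  rw [inv_mul_eq_one] at h9
  have h10 : x = 1 := h.key hN hDN hz ht htN T1 (h3 _ _ T2) m1 h9.symm (by
    calc a * b * x * (a * b)⁻¹ = a * (b * x * b⁻¹) * a⁻¹ := by group
      _ = _ := by rw [← hw, ← h9, h4])
  rw [hx, inv_mul_eq_one] at h10
  exact h10.symm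

theorem exists_section {Y : Type*} [Group Y] (π : L →* Y) (hπ : Function.Surjective π)
    (M : Subgroup Y) (h : (Nat.card π.ker).Coprime (Nat.card M)) :
    ∃ s : M →* L, ∀ g, π (s g) = g := by
  let φ : M.comap π →* M := π.subgroupComap M
  have h1 : Function.Surjective φ := π.subgroupComap_surjective_of_surjective M hπ
  have h2 : Nat.card φ.ker ∣ Nat.card π.ker := card_dvd_of_injective
    (((M.comap π).subtype.comp φ.ker.subtype).codRestrict π.ker fun x =>
      congrArg Subtype.val x.2) fun a b e => Subtype.ext (Subtype.ext (Subtype.mk.inj e))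
  obtain ⟨A, hA⟩ := exists_right_complement'_of_coprime (N := φ.ker) (by
    rw [index_ker, MonoidHom.range_eq_top.2 h1, card_top]
    exact h.coprime_dvd_left h2)
  have h3 : Function.Bijective (φ.comp A.subtype) := by
    refine ⟨(injective_iff_map_eq_one _).2 fun a ha => Subtype.ext
      (hA.disjoint.le_bot ⟨ha, a.2⟩), fun g => ?_⟩
    obtain ⟨x, rfl⟩ := h1 g
    obtain ⟨⟨k, a⟩, rfl⟩ := hA.2 x
    exact ⟨a, by simp only; rw [map_mul, show φ k = 1 from k.2, one_mul]; rfl⟩
  refine ⟨((M.comap π).subtype.comp A.subtype).comp (MulEquiv.ofBijective _ h3).symm.toMonoidHom,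
    fun g => ?_⟩
  exact congrArg Subtype.val ((MulEquiv.ofBijective _ h3).apply_symm_apply g)

open SL2 in
theorem cube_of_tr {F : Type*} [Field F] {w : SL(2, F)} (h : tr w = -1) : w ^ 3 = 1 := by
  have h1 := det_eq w
  have h2 := h
  rw [tr] at h2
  rw [pow_three]
  apply ext2 <;> rw [mul_ap, mul_self_ap, mul_self_ap, h] <;>
    simp only [one_00, one_01, one_10, one_11]
  · linear_combination h1 - w 0 0 * h2
  · linear_combination -w 0 1 * h2
  · linear_combination -w 1 0 * h2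
  · linear_combination h1 - w 1 1 * h2

open SL2 in
theorem exists_tri {F : Type*} [Field F] [Finite F] (h2 : (2 : F) ≠ 0) :
    ∃ w i j : SL(2, F), Tri (-1) w i j ∧ w ^ 3 = 1 ∧ w ≠ 1 ∧ i ∉ center SL(2, F) := by
  obtain ⟨x, y, h⟩ := exists_binary_form_eq (1 : F) 0 1 (by
    rw [show (0 : F) ^ 2 - 4 * 1 * 1 = -(2 * 2) by ring]; simp [h2]) (-1)
  obtain ⟨u, hu⟩ : ∃ u : F, 2 * u = 1 := ⟨2⁻¹, mul_inv_cancel₀ h2⟩
  have T : Tri (-1) (mk2 (-u * (1 + x - y)) (-u * (-1 + x + y)) (-u * (1 + x + y)) (-u * (1 - x + y))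
      (by linear_combination (-2 * u ^ 2) * h + (2 * u + 1) * hu)) ww
      (mk2 x y y (-x) (by linear_combination -h)) := by
    constructor <;> apply ext2 <;> simp only [mul_ap, neg_ap, mk2_00, mk2_01, mk2_10, mk2_11, ww_00,
      ww_01, ww_10, ww_11, one_00, one_01, one_10, one_11]
    all_goals first | ring1 | linear_combination h | linear_combination u * h |
      linear_combination -u * h
  refine ⟨_, _, _, T, ?_, fun e => ?_, fun e => ?_⟩
  · exact cube_of_tr (by simp only [tr, mk2_00, mk2_11]; linear_combination -hu)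
  · have := T.ta
    rw [e, one_mul, mul_one] at this
    have h1 := congrArg (fun g : SL(2, F) => g 0 1) this
    have h3 := congrArg (fun g : SL(2, F) => g 1 0) this
    simp only [mk2_01, mk2_10, ww_01, ww_10] at h1 h3
    exact h2 (by linear_combination h3 - h1)
  · simpa using ((mem_center_iff_isScal _).1 e).1

end CfsgLib.Fix6
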