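import Cfsg.Agent.Lib.Fix6.Mod
import Cfsg.Agent.Lib.SL2.Basic

/-!
# Large fixed spaces (S5720), V: weight spaces of `SL₂(p)` in characteristic `p`
-/

set_option autoImplicit false
set_option linter.unusedSectionVars false
set_option linter.unusedVariables false

namespace CfsgLib.Fix6
open Module Subgroup SL2 Finset
open scoped MatrixGroups

variable {K : Type*} [Field K] {p : ℕ} [hp : Fact p.Prime] [Algebra (ZMod p) K]
  {V : Type*} [AddCommGroup V] [Module K V] [FiniteDimensional K V]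

theorem sum_finrank_le {ι : Type*} [Fintype ι] (W : ι → Submodule K V) (h : iSupIndep W)
    (U : Submodule K V) (hU : ∀ i, W i ≤ U) : ∑ i, finrank K (W i) ≤ finrank K U := by
  classical
  rw [← Module.finrank_directSum,
    ← LinearMap.finrank_range_of_inj (f := DirectSum.coeLinearMap W) h.dfinsupp_lsum_injective,
    DirectSum.range_coeLinearMap]
  exact Submodule.finrank_mono (iSup_le hU)

variable (K) in
/-- the prime field inside `K` -/
abbrev io (c : ZMod p) : K := algebraMap (ZMod p) K c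

theorem io_ne (a : (ZMod p)ˣ) : io K (a : ZMod p) ≠ 0 := (_root_.map_ne_zero _).2 a.ne_zero

theorem io_pow (a : (ZMod p)ˣ) : io K (a : ZMod p) ^ (p - 1) = 1 := by
  rw [← map_pow, ZMod.pow_card_sub_one_eq_one a.ne_zero, map_one]

theorem exists_gen : ∃ l : (ZMod p)ˣ, orderOf (io K (l : ZMod p)) = p - 1 ∧
    ∀ a : (ZMod p)ˣ, ∃ k : ℕ, a = l ^ k := by
  obtain ⟨l, hl⟩ := IsCyclic.exists_monoid_generator (α := (ZMod p)ˣ)
  refine ⟨l, ?_, fun a => (hl a).imp fun k hk => hk.symm⟩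
  have h1 := orderOf_injective (algebraMap (ZMod p) K).toMonoidHom (algebraMap (ZMod p) K).injective
    (l : ZMod p)
  rw [orderOf_units, orderOf_eq_card_of_forall_mem_powers hl, Nat.card_eq_fintype_card,
    ZMod.card_units] at h1
  exact h1

variable (K p) in
/-- the raising operator -/
noncomputable def XX : MonoidAlgebra K SL(2, ZMod p) :=
  ∑ c : ZMod p, io K c⁻¹ • MonoidAlgebra.of K _ (uu c)

variable (K p) in
/-- the projection to the weight space -/
noncomputable def ee (μ : ℕ) : MonoidAlgebra K SL(2, ZMod p) :=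
  ∑ a : (ZMod p)ˣ, (-(io K (a : ZMod p) ^ μ)⁻¹) • MonoidAlgebra.of K _ (dg a)

/-- weight spaces -/
def Wt (ρ : Representation K SL(2, ZMod p) V) (μ : ℕ) : Submodule K V where
  carrier := {v | ∀ a : (ZMod p)ˣ, ρ (dg a) v = io K (a : ZMod p) ^ μ • v}
  add_mem' h1 h2 a := by rw [map_add, h1 a, h2 a, smul_add]
  zero_mem' a := by simp
  smul_mem' c v h a := by rw [map_smul, h a, smul_comm]

variable (ρ : Representation K SL(2, ZMod p) V)

theorem XX_apply (v : V) : ρ.asAlgebraHom (XX K p) v = ∑ c : ZMod p, io K c⁻¹ • ρ (uu c) v := by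
  simp [XX, map_sum, LinearMap.sum_apply]

theorem ee_apply (μ : ℕ) (v : V) : ρ.asAlgebraHom (ee K p μ) v =
    ∑ a : (ZMod p)ˣ, (-(io K (a : ZMod p) ^ μ)⁻¹) • ρ (dg a) v := by
  simp only [ee, map_sum, LinearMap.sum_apply, map_smul, Representation.asAlgebraHom_of,
    LinearMap.smul_apply]

theorem Wt_period (μ : ℕ) : Wt ρ (μ + (p - 1)) = Wt ρ μ := by
  ext v
  change (∀ a, _) ↔ ∀ a, _
  simp only [pow_add, io_pow, mul_one]

theorem ee_mem (μ : ℕ) (v : V) : ρ.asAlgebraHom (ee K p μ) v ∈ Wt ρ μ := by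
  intro b
  rw [ee_apply, map_sum, smul_sum]
  refine Fintype.sum_equiv (Equiv.mulLeft b) _ _ fun a => ?_
  rw [map_smul, ← End.mul_apply, ← map_mul, ← dg_mul, smul_smul, Equiv.coe_mulLeft]
  congr 1
  have h1 := io_ne (K := K) a
  have h2 := io_ne (K := K) b
  simp only [Units.val_mul, io, map_mul] at *
  field_simp
  rw [mul_pow, mul_comm]

theorem ee_of_mem {μ : ℕ} {v : V} (h : v ∈ Wt ρ μ) : ρ.asAlgebraHom (ee K p μ) v = v := by
  rw [ee_apply]
  have : ∀ a : (ZMod p)ˣ, (-(io K (a : ZMod p) ^ μ)⁻¹) • ρ (dg a) v = -v := fun a => by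
    rw [h a, smul_smul, neg_mul, inv_mul_cancel₀ (pow_ne_zero _ (io_ne a)), neg_one_smul]
  simp only [this, sum_const, card_univ, ZMod.card_units]
  haveI : CharP K p := charP_of_injective_algebraMap (algebraMap (ZMod p) K).injective p
  rw [← Nat.cast_smul_eq_nsmul K, Nat.cast_sub hp.out.one_le, CharP.cast_eq_zero]
  simp

theorem dg_uu (a : (ZMod p)ˣ) (c : ZMod p) : dg a * uu c = uu (a ^ 2 * c) * dg a := by
  have := a.ne_zero
  apply ext2 <;> simp only [mul_ap, uu_00, uu_01, uu_10, uu_11, dg_00, dg_01, dg_10, dg_11,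
    Units.val_inv_eq_inv_val] <;> field_simp <;> ring

theorem XX_mem {μ : ℕ} {v : V} (h : v ∈ Wt ρ μ) : ρ.asAlgebraHom (XX K p) v ∈ Wt ρ (μ + 2) := by
  intro a
  rw [XX_apply, map_sum, smul_sum]
  refine Fintype.sum_equiv (Units.mulLeft (a ^ 2)) _ _ fun c => ?_
  rw [map_smul, ← End.mul_apply, ← map_mul, dg_uu, map_mul, End.mul_apply, h a, map_smul, smul_smul,
    smul_smul, Units.mulLeft_apply, Units.val_pow_eq_pow_val]
  congr 1
  have h2 := io_ne (K := K) a
  simp only [io, map_mul, mul_inv, map_inv₀, map_pow] at *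
  field_simp
  ring

theorem XX_pow_mem {μ : ℕ} {v : V} (h : v ∈ Wt ρ μ) (j : ℕ) :
    (ρ.asAlgebraHom (XX K p) ^ j) v ∈ Wt ρ (μ + 2 * j) := by
  induction j with
  | zero => exact h
  | succ j ih => rw [pow_succ', End.mul_apply]; exact XX_mem ρ ih

theorem uu_nat (n : ℕ) : uu (n : ZMod p) = uu 1 ^ n := by
  induction n with
  | zero => rw [Nat.cast_zero, uu_zero, pow_zero]
  | succ n ih => rw [Nat.cast_succ, uu_add, ih, pow_succ]

theorem uu_val (c : ZMod p) : uu c = uu 1 ^ c.val := by rw [← uu_nat, ZMod.natCast_zmod_val]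

theorem u_nil : (ρ (uu 1) - 1) ^ p = 0 := by
  haveI : CharP K p := charP_of_injective_algebraMap (algebraMap (ZMod p) K).injective p
  rcases subsingleton_or_nontrivial V with h | h
  · exact Subsingleton.elim _ _
  haveI : CharP (End K V) p := charP_of_injective_algebraMap (algebraMap K (End K V)).injective p
  rw [sub_pow_char_of_commute _ (Commute.one_right _), ← map_pow, ← uu_nat, ZMod.natCast_self,
    uu_zero, map_one, one_pow, sub_self]

open Polynomial in
theorem XX_unit (h2 : 2 < p) : ρ.asAlgebraHom (XX K p) ^ p = 0 ∧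
    ∃ Y : End K V, ρ (uu 1) - 1 = Y * ρ.asAlgebraHom (XX K p) := by
  classical
  haveI : CharP K p := charP_of_injective_algebraMap (algebraMap (ZMod p) K).injective p
  let f : K[X] := ∑ c : ZMod p, C (io K c⁻¹) * X ^ c.val
  have h1 : aeval (ρ (uu 1)) f = ρ.asAlgebraHom (XX K p) := by
    simp only [f, XX, map_sum, map_mul, map_pow, aeval_C, aeval_X, map_smul,
      Representation.asAlgebraHom_of, Algebra.smul_def, AlgHom.commutes]
    exact Finset.sum_congr rfl fun c _ => by rw [← map_pow, ← uu_val]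
  have h3 : f.IsRoot 1 := by
    simp only [f, IsRoot, eval_finsetSum, eval_mul, eval_C, eval_pow, eval_X, one_pow, mul_one]
    rw [← map_sum, show ∑ c : ZMod p, c⁻¹ = ∑ c : ZMod p, c from
      Equiv.sum_comp (Equiv.inv (ZMod p)) fun c => c]
    have := FiniteField.sum_pow_lt_card_sub_one (ZMod p) 1 (by rw [ZMod.card]; omega)
    simp only [pow_one] at this
    rw [this, map_zero]
  obtain ⟨g, hg⟩ := dvd_iff_isRoot.2 h3
  have h4 : g.eval 1 = -1 := by
    have h5 := congrArg (fun q => (derivative q).eval 1) hg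
    simp only [f, derivative_sum, derivative_mul, derivative_C, derivative_X_pow, eval_finsetSum,
      eval_add, eval_mul, eval_C, eval_pow, eval_X, one_pow, derivative_sub, derivative_X,
      eval_sub, eval_one, eval_zero, zero_mul, zero_add, mul_one, sub_zero, one_mul, sub_self,
      add_zero] at h5
    rw [← h5]
    have h6 : ∀ c : ZMod p, io K c⁻¹ * (c.val : K) = 1 - if c = 0 then 1 else 0 := fun c => by
      rw [← map_natCast (algebraMap (ZMod p) K), ZMod.natCast_zmod_val, ← map_mul]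
      split_ifs with h
      · simp [h]
      · simp [inv_mul_cancel₀ h]
    rw [Finset.sum_congr rfl fun c _ => h6 c]
    simp [ZMod.card]
  have h5 : IsCoprime ((X - C 1) ^ p) g := IsCoprime.pow_left
    (((irreducible_X_sub_C (1 : K)).coprime_iff_not_dvd).2 fun e => by
      have := dvd_iff_isRoot.1 e
      rw [IsRoot, h4] at this
      simp at this)
  obtain ⟨a, b, hab⟩ := h5
  have h6 : aeval (ρ (uu 1)) (X - C 1 : K[X]) = ρ (uu 1) - 1 := by simp
  refine ⟨?_, aeval (ρ (uu 1)) b, ?_⟩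
  · rw [← h1, ← map_pow, hg, mul_pow, map_mul, map_pow, h6, u_nil, zero_mul]
  · have h7 : X - C 1 = a * (X - C 1) * (X - C 1) ^ p + b * f := by
      rw [hg]; linear_combination -(X - C 1) * hab
    rw [← h1, ← h6, h7, map_add, map_mul _ _ (_ ^ p), map_pow, h6, u_nil, mul_zero, zero_add, map_mul]

/-- dimension of the kernel of `X ^ j` on a weight space -/
noncomputable def DD (μ j : ℕ) : ℕ :=
  finrank K ↥(Wt ρ μ ⊓ LinearMap.ker (ρ.asAlgebraHom (XX K p) ^ j))

theorem DD_add (μ i j : ℕ) : DD ρ μ (i + j) ≤ DD ρ μ i + DD ρ (μ + 2 * i) j := by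
  unfold DD
  rw [finrank_le_map_add _ (ρ.asAlgebraHom (XX K p) ^ i), add_comm]
  refine add_le_add (Submodule.finrank_mono (inf_le_inf_right _ inf_le_left))
    (Submodule.finrank_mono ?_)
  rintro _ ⟨v, ⟨h1, h2⟩, rfl⟩
  refine ⟨XX_pow_mem ρ h1 i, ?_⟩
  rw [SetLike.mem_coe, LinearMap.mem_ker, ← End.mul_apply, ← pow_add, add_comm j]
  exact h2

theorem DD_le (μ j : ℕ) : DD ρ μ j ≤ ∑ i ∈ range j, DD ρ (μ + 2 * i) 1 := by
  induction j with
  | zero =>
    rw [DD, pow_zero, End.one_eq_id, LinearMap.ker_id, inf_bot_eq, finrank_bot]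
    exact Nat.zero_le _
  | succ j ih => rw [sum_range_succ]; exact (DD_add ρ μ j 1).trans (by omega)

theorem DD_period (μ j : ℕ) : DD ρ (μ + (p - 1)) j = DD ρ μ j := by
  unfold DD; rw [Wt_period]

theorem rk_XX_ee (h2 : 2 < p) (μ : ℕ) :
    rk (ρ.asAlgebraHom (XX K p * ee K p μ)) ≤ DD ρ (μ + 2) (p - 1) := by
  refine Submodule.finrank_mono ?_
  rintro _ ⟨v, rfl⟩
  rw [map_mul, End.mul_apply]
  refine ⟨XX_mem ρ (ee_mem ρ μ v), ?_⟩
  rw [SetLike.mem_coe, LinearMap.mem_ker, ← End.mul_apply, ← pow_succ, Nat.sub_add_cancel hp.out.one_le,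
    (XX_unit ρ h2).1, LinearMap.zero_apply]

theorem sum_DD_le (h2 : 2 < p) :
    ∑ j ∈ range (p - 1), DD ρ (1 + j) 1 ≤ nul (ρ (uu 1) - 1) := by
  obtain ⟨l, h1, -⟩ := exists_gen (K := K) (p := p)
  rw [sum_range]
  refine sum_finrank_le (fun j : Fin (p - 1) => Wt ρ (1 + j) ⊓ _)
    (((End.eigenspaces_iSupIndep (ρ (dg l))).comp (f := fun j : Fin (p - 1) =>
      io K (l : ZMod p) ^ (1 + j.1)) fun i j e => Fin.ext ?_).mono
      fun j v hv => End.mem_eigenspace_iff.2 (hv.1 l)) _ fun j v hv => ?_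
  · simp only [pow_add] at e
    exact pow_injOn_Iio_orderOf (i.2.trans_eq h1.symm) (j.2.trans_eq h1.symm)
      (mul_left_cancel₀ (pow_ne_zero _ (io_ne l)) e)
  · obtain ⟨Y, hY⟩ := (XX_unit ρ h2).2
    have h3 := hv.2
    rw [pow_one] at h3
    rw [LinearMap.mem_ker, hY, End.mul_apply, LinearMap.mem_ker.1 h3, map_zero]

variable (K p) in
/-- the correction operator -/
noncomputable def bb : MonoidAlgebra K SL(2, ZMod p) :=
  XX K p ^ (p / 2) * ee K p 3 + (1 - ee K p 3)

theorem nul_bb (h2 : 2 < p) : nul (ρ.asAlgebraHom (bb K p)) = DD ρ 3 (p / 2) := by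
  have h0 : 2 * (p / 2) = p - 1 := by
    have := hp.out.eq_two_or_odd
    omega
  have : LinearMap.ker (ρ.asAlgebraHom (bb K p)) =
      Wt ρ 3 ⊓ LinearMap.ker (ρ.asAlgebraHom (XX K p) ^ (p / 2)) := by
    ext v
    simp only [bb, map_add, map_mul, map_sub, map_one, map_pow, LinearMap.mem_ker, Submodule.mem_inf,
      LinearMap.add_apply, LinearMap.sub_apply, End.mul_apply, End.one_apply]
    refine ⟨fun h => ?_, fun h => by rw [ee_of_mem ρ h.1, h.2, sub_self, add_zero]⟩
    have h1 := XX_pow_mem ρ (ee_mem ρ 3 v) (p / 2)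
    rw [h0, Wt_period] at h1
    have h3 : v ∈ Wt ρ 3 := by
      have := (Wt ρ 3).sub_mem (ee_mem ρ 3 v) h1
      rwa [eq_neg_of_add_eq_zero_left h, neg_sub, sub_sub_cancel] at this
    rw [ee_of_mem ρ h3, sub_self, add_zero] at h
    exact ⟨h3, h⟩
  unfold nul DD
  rw [this]

theorem upper (h2 : 2 < p) :
    2 * rk (ρ.asAlgebraHom (XX K p * ee K p (p - 2))) + rk (ρ.asAlgebraHom (XX K p * ee K p 0)) ≤
      2 * nul (ρ.asAlgebraHom (bb K p)) + 2 * nul (ρ (uu 1) - 1) := by
  obtain ⟨h, hh⟩ : ∃ h, p = 2 * (h + 1) + 1 := by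
    have := hp.out.eq_two_or_odd
    exact ⟨p / 2 - 1, by omega⟩
  have e1 : p / 2 = h + 1 := by omega
  have e2 : p - 1 = 2 * (h + 1) := by omega
  have h1 := rk_XX_ee ρ h2 (p - 2)
  have h3 := rk_XX_ee ρ h2 0
  have h4 := sum_DD_le ρ h2
  rw [nul_bb ρ h2, e1]
  rw [show p - 2 + 2 = 1 + (p - 1) by omega, DD_period,
    show p - 1 = 1 + ((h + 1) + h) by omega] at h1
  have h5 := DD_add ρ 1 1 ((h + 1) + h)
  have h6 := DD_add ρ 3 (h + 1) h
  rw [← e2, DD_period] at h6
  have h7 := DD_le ρ 3 h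
  rw [show p - 1 = (h + 1) + (h + 1) by omega] at h3
  have h8 := DD_add ρ 2 (h + 1) (h + 1)
  rw [← e2, DD_period] at h8
  have h9 := DD_le ρ 2 (h + 1)
  have h10 : ∀ n, ∑ j ∈ range (2 * n), DD ρ (1 + j) 1 =
      ∑ i ∈ range n, DD ρ (1 + 2 * i) 1 + ∑ i ∈ range n, DD ρ (2 + 2 * i) 1 := by
    intro n
    induction n with
    | zero => simp
    | succ n ih =>
      rw [mul_add, mul_one, sum_range_succ, sum_range_succ, ih, sum_range_succ, sum_range_succ,
        show 1 + (2 * n + 1) = 2 + 2 * n by ring]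
      omega
  rw [e2, h10, sum_range_succ'] at h4
  simp only [show ∀ i, 1 + 2 * (i + 1) = 3 + 2 * i from fun i => by ring] at h4
  simp only [mul_zero, add_zero, mul_one, zero_add, Nat.reduceAdd] at *
  omega

end CfsgLib.Fix6
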